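import Cfsg.Agent.FGS4.ClassSubnormal.Idempotent
import Cfsg.Agent.OddLocal.UniqueSubgroup
import Cfsg.Agent.Transfer.SymplecticType
import Mathlib.FieldTheory.Finite.Basic

/-! # A normal `p`-subgroup of a linear group without block systems has a regular vector -/

set_option linter.style.haveILetI false

namespace Cfsg.Agent.FGS4.ClassSubnormal

open scoped commutatorElement

variable {W : Type*} [AddCommGroup W]

theorem exists_inv_cast [Finite W] {p : ℕ} (hcop : (Nat.card W).Coprime p) :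
    ∃ c : ℕ, (c : AddMonoid.End W) * (p : AddMonoid.End W) = 1 := by
  refine ⟨p ^ ((Nat.card W).totient - 1), ?_⟩
  rw [← Nat.cast_mul, ← pow_succ, Nat.sub_add_cancel (Nat.totient_pos.2 Nat.card_pos)]
  apply AddMonoidHom.ext
  intro w
  show ((p ^ (Nat.card W).totient : ℕ) : AddMonoid.End W) w = w
  rw [AddMonoid.End.natCast_apply]
  have h := Nat.ModEq.pow_totient hcop.symm
  conv_lhs => rw [← Nat.mod_add_div (p ^ (Nat.card W).totient) (Nat.card W), h]
  rw [add_nsmul, mul_nsmul]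
  simp only [card_nsmul_eq_zero', smul_zero, add_zero]
  rcases eq_or_ne (Nat.card W) 1 with h1 | h1
  · haveI := (Nat.card_eq_one_iff_unique.1 h1).1
    exact Subsingleton.elim _ _
  · rw [Nat.one_mod_eq_one.2 h1, one_nsmul]

theorem apply_mul (f g : AddMonoid.End W) (w : W) : (f * g) w = f (g w) := rfl

theorem sum_apply {ι : Type*} (s : Finset ι) (f : ι → AddMonoid.End W) (w : W) :
    (∑ i ∈ s, f i) w = ∑ i ∈ s, f i w :=
  map_sum ({ toFun := fun g => g w, map_zero' := rfl, map_add' := fun _ _ => rfl } :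
    AddMonoid.End W →+ W) f s

theorem avg_apply_fixed {p c : ℕ} (hc : (c : AddMonoid.End W) * (p : AddMonoid.End W) = 1)
    {u : (AddMonoid.End W)ˣ} {w : W} (h : (u : AddMonoid.End W) w = w) : avg p c u w = w := by
  have hj : ∀ j : ℕ, ((u : AddMonoid.End W) ^ j) w = w := fun j => by
    induction j with
    | zero => rfl
    | succ j ih => rw [pow_succ, apply_mul, h, ih]
  show (c : AddMonoid.End W) ((∑ j ∈ Finset.range p, (u : AddMonoid.End W) ^ j) w) = w
  have h2 : (∑ j ∈ Finset.range p, (u : AddMonoid.End W) ^ j) w = p • w := by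
    refine (sum_apply (Finset.range p) _ w).trans ?_
    rw [Finset.sum_congr rfl fun j _ => hj j, Finset.sum_const, Finset.card_range]
  rw [h2, ← AddMonoid.End.natCast_apply p w, ← apply_mul, hc]
  rfl

theorem avg_fixed {p c : ℕ} {u : (AddMonoid.End W)ˣ} (hu : u ^ p = 1) (w : W) :
    (u : AddMonoid.End W) (avg p c u w) = avg p c u w :=
  DFunLike.congr_fun (unit_mul_avg hu) w

/-- The fixed points of a unit inside a subgroup. -/
def fixIn (U : AddSubgroup W) (u : (AddMonoid.End W)ˣ) : AddSubgroup W where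
  carrier := {w | w ∈ U ∧ (u : AddMonoid.End W) w = w}
  zero_mem' := ⟨U.zero_mem, map_zero _⟩
  add_mem' := fun {a b} ha hb => ⟨U.add_mem ha.1 hb.1, by rw [map_add, ha.2, hb.2]⟩
  neg_mem' := fun {a} ha => ⟨U.neg_mem ha.1, by rw [map_neg, ha.2]⟩

theorem mem_fixIn {U : AddSubgroup W} {u : (AddMonoid.End W)ˣ} {w : W} :
    w ∈ fixIn U u ↔ w ∈ U ∧ (u : AddMonoid.End W) w = w := Iff.rfl

variable {p c : ℕ} [hp : Fact p.Prime]

/-- `x z^i` are conjugate and their fixed spaces decompose `U`. -/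
theorem card_fix_pow [Finite W] (hc : (c : AddMonoid.End W) * (p : AddMonoid.End W) = 1) (H : Subgroup (AddMonoid.End W)ˣ)
    (U : AddSubgroup W) (hU : ∀ h ∈ H, ∀ w ∈ U, (h : AddMonoid.End W) w ∈ U)
    {x y z : (AddMonoid.End W)ˣ} (hxH : x ∈ H) (hyH : y ∈ H) (hzH : z ∈ H) (hx : x ^ p = 1)
    (hzp : z ^ p = 1) (hzx : Commute z x) (hzy : Commute z y) (hyx : y * x * y⁻¹ = x * z)
    (hz : ∀ j : ℕ, 1 ≤ j → j < p → avg p c (z ^ j) = 0) :
    Nat.card U = Nat.card (fixIn U x) ^ p := by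
  classical
  let a : ℕ → (AddMonoid.End W)ˣ := fun i => x * z ^ i
  have ha : ∀ i, a i ^ p = 1 := fun i => by
    rw [(hzx.symm.pow_right i).mul_pow, hx, one_mul, ← pow_mul, mul_comm, pow_mul, hzp, one_pow]
  have haH : ∀ i, a i ∈ H := fun i => mul_mem hxH (pow_mem hzH i)
  have hconj : ∀ i, y ^ i * x * (y ^ i)⁻¹ = a i := by
    intro i
    induction i with
    | zero => simp [a]
    | succ i ih =>
      calc y ^ (i + 1) * x * (y ^ (i + 1))⁻¹ = y * (y ^ i * x * (y ^ i)⁻¹) * y⁻¹ := by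
            rw [pow_succ']; group
        _ = y * x * y⁻¹ * (y * z ^ i * y⁻¹) := by rw [ih]; simp only [a]; group
        _ = x * z * z ^ i := by rw [hyx, ← (hzy.pow_left i).eq]; group
        _ = a (i + 1) := by simp only [a]; rw [pow_succ', mul_assoc]
  have hsum := sum_avg_translate hp.out.pos hc hzx hz
  have horth : ∀ i l : ℕ, i < l → l < p → ∀ w : W, avg p c (a i) (avg p c (a l) w) = 0 := by
    intro i l hil hlp w
    set w' := avg p c (a i) (avg p c (a l) w) with hw'
    have h1 : (a i : AddMonoid.End W) w' = w' := avg_fixed (ha i) _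
    have hcomm : Commute (a i) (a l) :=
      ((Commute.refl x).mul_right (hzx.symm.pow_right l)).mul_left
        ((hzx.pow_left i).mul_right ((Commute.refl z).pow_pow i l))
    have h2 : (a l : AddMonoid.End W) w' = w' := by
      rw [hw', ← apply_mul (avg p c (a i)), avg_commute_avg hcomm, apply_mul]
      exact avg_fixed (ha l) _
    have h3 : ((z ^ (l - i) : (AddMonoid.End W)ˣ) : AddMonoid.End W) w' = w' := by
      have e : a l = z ^ (l - i) * a i := by
        show x * z ^ l = z ^ (l - i) * (x * z ^ i)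
        rw [← mul_assoc, (hzx.pow_left (l - i)).eq, mul_assoc, ← pow_add, Nat.sub_add_cancel hil.le]
      rw [e, Units.val_mul, apply_mul, h1] at h2
      exact h2
    have h4 := avg_apply_fixed hc h3
    rw [hz (l - i) (by omega) (by omega)] at h4
    exact h4.symm
  have horth' : ∀ i l : ℕ, i < p → l < p → i ≠ l → ∀ w : W, avg p c (a i) (avg p c (a l) w) = 0 := by
    intro i l hi hl hne w
    rcases Nat.lt_or_gt_of_ne hne with h | h
    · exact horth i l h hl w
    · have hcomm : Commute (a i) (a l) :=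
        ((Commute.refl x).mul_right (hzx.symm.pow_right l)).mul_left
          ((hzx.pow_left i).mul_right ((Commute.refl z).pow_pow i l))
      rw [← apply_mul, avg_commute_avg hcomm, apply_mul]
      exact horth l i h hi w
  have havgU : ∀ i, ∀ w ∈ U, avg p c (a i) w ∈ U := by
    intro i w hw
    show (c : AddMonoid.End W) ((∑ j ∈ Finset.range p, (a i : AddMonoid.End W) ^ j) w) ∈ U
    rw [AddMonoid.End.natCast_apply]
    refine U.nsmul_mem ?_ c
    rw [sum_apply]
    refine U.sum_mem fun j _ => ?_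
    rw [← Units.val_pow_eq_pow_val]
    exact hU _ (pow_mem (haH i) j) w hw
  let Φ : U → (Fin p → fixIn U x) := fun w i =>
    ⟨(((y ^ (i : ℕ))⁻¹ : (AddMonoid.End W)ˣ) : AddMonoid.End W) (avg p c (a i) w),
      hU _ (inv_mem (pow_mem hyH _)) _ (havgU i w w.2), by
      have e : x * (y ^ (i : ℕ))⁻¹ = (y ^ (i : ℕ))⁻¹ * a i := by rw [← hconj]; group
      rw [← apply_mul, ← Units.val_mul, e, Units.val_mul, apply_mul, avg_fixed (ha _)]⟩
  let Ψ : (Fin p → fixIn U x) → U := fun g =>
    ⟨∑ i : Fin p, ((y ^ (i : ℕ) : (AddMonoid.End W)ˣ) : AddMonoid.End W) (g i),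
      U.sum_mem fun i _ => hU _ (pow_mem hyH _) _ (g i).2.1⟩
  have hg : ∀ (g : Fin p → fixIn U x) (i : Fin p),
      avg p c (a i) (((y ^ (i : ℕ) : (AddMonoid.End W)ˣ) : AddMonoid.End W) (g i)) =
        ((y ^ (i : ℕ) : (AddMonoid.End W)ˣ) : AddMonoid.End W) (g i) := by
    intro g i
    refine avg_apply_fixed hc ?_
    have e : a i * y ^ (i : ℕ) = y ^ (i : ℕ) * x := by rw [← hconj]; group
    rw [← apply_mul, ← Units.val_mul, e, Units.val_mul, apply_mul, (g i).2.2]
  have hcard : Nat.card U = Nat.card (Fin p → fixIn U x) := by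
    refine Nat.card_congr ⟨Φ, Ψ, fun w => Subtype.ext ?_, fun g => funext fun l => Subtype.ext ?_⟩
    · show ∑ i : Fin p, ((y ^ (i : ℕ) : (AddMonoid.End W)ˣ) : AddMonoid.End W) (Φ w i) = w
      have h1 : ∀ i : Fin p, ((y ^ (i : ℕ) : (AddMonoid.End W)ˣ) : AddMonoid.End W) (Φ w i) =
          avg p c (a i) w := fun i => by
        show ((y ^ (i : ℕ) : (AddMonoid.End W)ˣ) : AddMonoid.End W)
          ((((y ^ (i : ℕ))⁻¹ : (AddMonoid.End W)ˣ) : AddMonoid.End W) (avg p c (a i) w)) = _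
        rw [← apply_mul, ← Units.val_mul, mul_inv_cancel]; rfl
      rw [Finset.sum_congr rfl fun i _ => h1 i, Fin.sum_univ_eq_sum_range (fun i => avg p c (a i) (w : W))]
      rw [← sum_apply]
      exact DFunLike.congr_fun hsum (w : W)
    · show (((y ^ (l : ℕ))⁻¹ : (AddMonoid.End W)ˣ) : AddMonoid.End W) (avg p c (a l)
        (∑ i : Fin p, ((y ^ (i : ℕ) : (AddMonoid.End W)ˣ) : AddMonoid.End W) (g i))) = g l
      rw [map_sum (avg p c (a l)), Finset.sum_eq_single l, hg, ← apply_mul, ← Units.val_mul,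
        inv_mul_cancel]
      · rfl
      · intro i _ hil
        rw [← hg g i]
        exact horth' l i l.2 i.2 (fun e => hil (Fin.ext e.symm)) _
      · intro h; exact absurd (Finset.mem_univ l) h
  rw [hcard, Nat.card_fun, Nat.card_fin]

/-- Centralizers of noncentral elements have index `p`. -/
theorem card_eq_mul_centralizer {K : Type*} [Group K] [Finite K] (A : Subgroup K) {z y : K}
    (hz : orderOf z = p) (hzA : ∀ a ∈ A, Commute z a) (hzy : Commute z y)
    (hcomm : ∀ a ∈ A, a * y * a⁻¹ * y⁻¹ ∈ Subgroup.zpowers z) (hne : ∃ a ∈ A, ¬ Commute a y) :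
    Nat.card A = p * Nat.card (A ⊓ Subgroup.centralizer {y} : Subgroup K) := by
  let φ : A →* Subgroup.zpowers z :=
    { toFun := fun a => ⟨a * y * (a : K)⁻¹ * y⁻¹, hcomm a a.2⟩
      map_one' := Subtype.ext (by simp)
      map_mul' := fun a b => Subtype.ext (by
        obtain ⟨i, hi⟩ := Subgroup.mem_zpowers_iff.1 (hcomm b b.2)
        show ((a * b : A) : K) * y * ((a * b : A) : K)⁻¹ * y⁻¹ =
          (a * y * (a : K)⁻¹ * y⁻¹) * (b * y * (b : K)⁻¹ * y⁻¹)
        calc ((a * b : A) : K) * y * ((a * b : A) : K)⁻¹ * y⁻¹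
            = a * (b * y * (b : K)⁻¹ * y⁻¹) * (a : K)⁻¹ * (a * y * (a : K)⁻¹ * y⁻¹) := by
              simp only [Subgroup.coe_mul]; group
          _ = z ^ i * (a * y * (a : K)⁻¹ * y⁻¹) := by
              rw [← hi, ← ((hzA a a.2).zpow_left i).eq, mul_inv_cancel_right]
          _ = (a * y * (a : K)⁻¹ * y⁻¹) * z ^ i :=
              ((((hzA a a.2).mul_right hzy).mul_right (hzA a a.2).inv_right).mul_right
                hzy.inv_right).zpow_left i
          _ = _ := by rw [hi]) }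
  have hsurj : Function.Surjective φ := by
    rw [← MonoidHom.range_eq_top]
    refine (φ.range.eq_bot_or_eq_top_of_prime_card (hp := ⟨by rw [Nat.card_zpowers, hz]; exact hp.out⟩)).resolve_left ?_
    intro hbot
    obtain ⟨a, ha, hna⟩ := hne
    refine hna ?_
    have h1 : φ ⟨a, ha⟩ = 1 := by rw [← Subgroup.mem_bot, ← hbot]; exact ⟨_, rfl⟩
    have h2 : a * y * a⁻¹ * y⁻¹ = 1 := congrArg Subtype.val h1
    exact mul_inv_eq_iff_eq_mul.1 (mul_inv_eq_one.1 h2)
  have h1 := φ.ker.index_mul_card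
  rw [Subgroup.index_ker, MonoidHom.range_eq_top.2 hsurj,
    Nat.card_congr Subgroup.topEquiv.toEquiv, Nat.card_zpowers, hz] at h1
  rw [← h1]
  congr 1
  rw [show φ.ker = (A ⊓ Subgroup.centralizer {y}).subgroupOf A from ?_]
  · exact Nat.card_congr (Subgroup.subgroupOfEquivOfLe inf_le_left).toEquiv
  ext a
  simp only [MonoidHom.mem_ker, Subgroup.mem_subgroupOf, Subgroup.mem_inf, SetLike.coe_mem, true_and,
    Subgroup.mem_centralizer_singleton_iff]
  constructor
  · intro h
    have h2 : (a : K) * y * (a : K)⁻¹ * y⁻¹ = 1 := congrArg Subtype.val h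
    exact mul_inv_eq_iff_eq_mul.1 (mul_inv_eq_one.1 h2)
  · intro h
    refine Subtype.ext ?_
    show (a : K) * y * (a : K)⁻¹ * y⁻¹ = 1
    rw [h]; group

variable [Finite W]

instance finite_units_end : Finite (AddMonoid.End W)ˣ :=
  haveI : Finite (AddMonoid.End W) :=
    Finite.of_injective (fun f : AddMonoid.End W => (f : W → W)) DFunLike.coe_injective
  Finite.of_injective (fun u : (AddMonoid.End W)ˣ => (u : AddMonoid.End W)) Units.val_injective

theorem exists_shift {H : Subgroup (AddMonoid.End W)ˣ} {x z : (AddMonoid.End W)ˣ} (hxH : x ∈ H)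
    (hcomm : ∀ a ∈ H, ∀ b ∈ H, a * b * a⁻¹ * b⁻¹ ∈ Subgroup.zpowers z)
    (hzc : ∀ h ∈ H, Commute z h) (hnc : ∃ y ∈ H, ¬ Commute y x) (hoz : orderOf z = p) :
    ∃ y ∈ H, y * x * y⁻¹ = x * z := by
  obtain ⟨y, hy, hyx⟩ := hnc
  obtain ⟨i, hi⟩ := Subgroup.mem_zpowers_iff.1 (hcomm y hy x hxH)
  have hnd : ¬ (p : ℤ) ∣ i := fun ⟨k, hk⟩ => hyx (by
    rw [hk, zpow_mul, zpow_natCast, ← hoz, pow_orderOf_eq_one, one_zpow] at hi
    exact mul_inv_eq_iff_eq_mul.1 (mul_inv_eq_one.1 hi.symm))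
  obtain ⟨a, b, hab⟩ := (Nat.prime_iff_prime_int.mp hp.out).coprime_iff_not_dvd.2 hnd
  refine ⟨y ^ b, zpow_mem hy b, ?_⟩
  have h1 : MulAut.conj y x = x * z ^ i := by
    rw [hi, MulAut.conj_apply]
    have := ((hzc x hxH).zpow_left i).eq
    rw [hi] at this
    rw [← this]; group
  have hn : ∀ n : ℕ, y ^ n * x * (y ^ n)⁻¹ = x * (z ^ i) ^ n := by
    intro n
    induction n with
    | zero => simp
    | succ n ih =>
      calc y ^ (n + 1) * x * (y ^ (n + 1))⁻¹ = y * (y ^ n * x * (y ^ n)⁻¹) * y⁻¹ := by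
            rw [pow_succ']; group
        _ = y * x * y⁻¹ * (y * (z ^ i) ^ n * y⁻¹) := by rw [ih]; group
        _ = x * z ^ i * (z ^ i) ^ n := by
            rw [← MulAut.conj_apply, h1, ← (((hzc y hy).zpow_left i).pow_left n).eq, mul_inv_cancel_right]
        _ = x * (z ^ i) ^ (n + 1) := by rw [pow_succ', mul_assoc]
  obtain ⟨n, hn'⟩ := mem_powers_iff_mem_zpowers.2 (zpow_mem (Subgroup.mem_zpowers y) b)
  have hz1 : z ^ (a * (p : ℤ) + b * i) = z := by rw [hab, zpow_one]
  rw [zpow_add, mul_comm a, zpow_mul, zpow_natCast, ← hoz, pow_orderOf_eq_one, one_zpow, one_mul] at hz1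
  have hnx := hn n
  simp only [hn'] at hnx
  rw [hnx]
  congr 1
  by_cases hy1 : (orderOf y : ℤ) ∣ (b - n)
  · obtain ⟨k, hk⟩ := hy1
    have hzy : (z ^ i) ^ (orderOf y) = 1 := by
      have h2 := hn (orderOf y)
      simp only [pow_orderOf_eq_one, one_mul, inv_one, mul_one] at h2
      exact (mul_eq_left.1 h2.symm)
    calc (z ^ i) ^ n = (z ^ i) ^ (n : ℤ) := (zpow_natCast _ _).symm
      _ = (z ^ i) ^ (b - (orderOf y : ℤ) * k) := by rw [← hk, sub_sub_cancel]
      _ = (z ^ i) ^ b := by rw [zpow_sub, zpow_mul, zpow_natCast, hzy, one_zpow, inv_one, mul_one]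
      _ = z := by rw [← zpow_mul, mul_comm, hz1]
  · exfalso
    refine hy1 (orderOf_dvd_iff_zpow_eq_one.2 ?_)
    rw [zpow_sub, zpow_natCast, show y ^ n = y ^ b from hn', mul_inv_cancel]

theorem sympl (hc : (c : AddMonoid.End W) * (p : AddMonoid.End W) = 1) :
    ∀ (n : ℕ) (H : Subgroup (AddMonoid.End W)ˣ) (U : AddSubgroup W) (z : (AddMonoid.End W)ˣ),
      Nat.card H = n → (∀ h ∈ H, ∀ w ∈ U, (h : AddMonoid.End W) w ∈ U) → U ≠ ⊥ →
      (∀ h ∈ H, h ^ p = 1) → z ∈ H → orderOf z = p → (∀ h ∈ H, Commute z h) →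
      (∀ a ∈ H, ∀ b ∈ H, a * b * a⁻¹ * b⁻¹ ∈ Subgroup.zpowers z) →
      (∀ j : ℕ, 1 ≤ j → j < p → avg p c (z ^ j) = 0) →
      ∃ m : ℕ, Nat.card H = p ^ (2 * m) * Nat.card (H ⊓ Subgroup.centralizer (H : Set (AddMonoid.End W)ˣ) : Subgroup _) ∧
        (p + 1) ^ p ^ m ≤ Nat.card U := by
  intro n
  induction n using Nat.strong_induction_on with
  | _ n ih =>
    intro H U z hn hU hUne hexp hzH hoz hzc hcomm hz
    subst hn
    by_cases hab : ∀ a ∈ H, ∀ b ∈ H, Commute a b
    · refine ⟨0, ?_, ?_⟩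
      · have : H ≤ Subgroup.centralizer (H : Set (AddMonoid.End W)ˣ) := fun a ha =>
          Subgroup.mem_centralizer_iff.2 fun b hb => hab b hb a ha
        rw [inf_eq_left.2 this]; simp
      · obtain ⟨w, hw, hw0⟩ : ∃ w ∈ U, w ≠ 0 := by
          by_contra h
          push Not at h
          exact hUne ((AddSubgroup.eq_bot_iff_forall _).2 h)
        let f : Option (Fin p) → U := fun o => o.elim ⟨0, U.zero_mem⟩ fun j =>
          ⟨((z ^ (j : ℕ) : (AddMonoid.End W)ˣ) : AddMonoid.End W) w, hU _ (pow_mem hzH _) _ hw⟩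
        have hnz : ∀ j : ℕ, ((z ^ j : (AddMonoid.End W)ˣ) : AddMonoid.End W) w ≠ 0 := by
          intro j e
          refine hw0 ?_
          have := congrArg ((((z ^ j)⁻¹ : (AddMonoid.End W)ˣ) : AddMonoid.End W)) e
          rwa [← apply_mul, ← Units.val_mul, inv_mul_cancel, map_zero] at this
        have hlt : ∀ i j : Fin p, (i : ℕ) < j →
            ((z ^ (i : ℕ) : (AddMonoid.End W)ˣ) : AddMonoid.End W) w ≠
              ((z ^ (j : ℕ) : (AddMonoid.End W)ˣ) : AddMonoid.End W) w := by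
          intro i j hij e
          have h1 : ((z ^ ((j : ℕ) - i) : (AddMonoid.End W)ˣ) : AddMonoid.End W) w = w := by
            have e' := congrArg ((((z ^ (i : ℕ))⁻¹ : (AddMonoid.End W)ˣ) : AddMonoid.End W)) e
            rw [← apply_mul, ← Units.val_mul, ← apply_mul, ← Units.val_mul, inv_mul_cancel] at e'
            rw [pow_sub z hij.le, ((Commute.refl z).pow_pow _ _).inv_right.eq]
            exact e'.symm
          have := avg_apply_fixed hc h1
          rw [hz _ (by omega) (by have := j.2; omega)] at this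
          exact hw0 this.symm
        have hf : Function.Injective f := by
          rintro (_ | i) (_ | j) e
          · rfl
          · exact absurd (congrArg Subtype.val e).symm (hnz j)
          · exact absurd (congrArg Subtype.val e) (hnz i)
          · rcases lt_trichotomy (i : ℕ) j with h | h | h
            · exact absurd (congrArg Subtype.val e) (hlt i j h)
            · rw [Fin.ext h]
            · exact absurd (congrArg Subtype.val e).symm (hlt j i h)
        have := Nat.card_le_card_of_injective f hf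
        rw [Nat.card_eq_fintype_card, Fintype.card_option, Fintype.card_fin] at this
        simpa using this
    push Not at hab
    obtain ⟨y0, hy0, x, hxH, hyx⟩ := hab
    obtain ⟨y, hyH, hy⟩ := exists_shift hxH hcomm hzc ⟨y0, hy0, hyx⟩ hoz
    have hcard := card_fix_pow hc H U hU hxH hyH hzH (hexp x hxH) (hexp z hzH) (hzc x hxH) (hzc y hyH) hy hz
    have hFne : fixIn U x ≠ ⊥ := by
      intro h
      rw [h, AddSubgroup.card_bot, one_pow, AddSubgroup.card_eq_one] at hcard
      exact hUne hcard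
    set H' := H ⊓ Subgroup.centralizer {x} with hH'
    have hzx : z ∈ H' := ⟨hzH, Subgroup.mem_centralizer_singleton_iff.2 (hzc x hxH).eq⟩
    have hU' : ∀ h ∈ H', ∀ w ∈ fixIn U x, (h : AddMonoid.End W) w ∈ fixIn U x := by
      rintro h ⟨hh, hhx⟩ w ⟨hw, hxw⟩
      refine ⟨hU h hh w hw, ?_⟩
      rw [← apply_mul, ← Units.val_mul, ← Subgroup.mem_centralizer_singleton_iff.1 hhx, Units.val_mul,
        apply_mul, hxw]
    have hHcard := card_eq_mul_centralizer H hoz hzc (hzc x hxH) (fun a ha => hcomm a ha x hxH)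
      ⟨y0, hy0, hyx⟩
    have hlt : Nat.card H' < Nat.card H := by
      rw [hHcard]
      exact lt_mul_left Nat.card_pos hp.out.one_lt
    obtain ⟨m, hm1, hm2⟩ := ih _ hlt H' (fixIn U x) z rfl hU' hFne (fun h hh => hexp h hh.1) hzx hoz
      (fun h hh => hzc h hh.1) (fun a ha b hb => hcomm a ha.1 b hb.1) hz
    refine ⟨m + 1, ?_, ?_⟩
    · set Z' := H' ⊓ Subgroup.centralizer (H' : Set (AddMonoid.End W)ˣ)
      have hxZ : x ∈ Z' := ⟨⟨hxH, Subgroup.mem_centralizer_singleton_iff.2 rfl⟩,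
        Subgroup.mem_centralizer_iff.2 fun h hh => Subgroup.mem_centralizer_singleton_iff.1 hh.2⟩
      have hyx' : ¬ Commute y x := fun e => by
        rw [e.eq, mul_inv_cancel_right, left_eq_mul] at hy
        rw [hy, orderOf_one] at hoz
        exact hp.out.one_lt.ne hoz
      have hZcard := card_eq_mul_centralizer Z' hoz (fun a ha => hzc a ha.1.1) (hzc y hyH)
        (fun a ha => hcomm a ha.1.1 y hyH) ⟨x, hxZ, fun e => hyx' e.symm⟩
      have hZ : (Z' ⊓ Subgroup.centralizer {y} : Subgroup _) =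
          H ⊓ Subgroup.centralizer (H : Set (AddMonoid.End W)ˣ) := by
        ext u
        constructor
        · rintro ⟨⟨⟨huH, hux⟩, hu'⟩, huy⟩
          refine ⟨huH, Subgroup.mem_centralizer_iff.2 fun h hh => ?_⟩
          obtain ⟨i, hi⟩ := Subgroup.mem_zpowers_iff.1 (hcomm h hh x hxH)
          obtain ⟨k, hk⟩ := mem_powers_iff_mem_zpowers.2 (zpow_mem (Subgroup.mem_zpowers y) i)
          have hyn : ∀ n : ℕ, y ^ n * x * (y ^ n)⁻¹ = x * z ^ n := by
            intro n
            induction n with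
            | zero => simp
            | succ n ihn =>
              calc y ^ (n + 1) * x * (y ^ (n + 1))⁻¹ = y * (y ^ n * x * (y ^ n)⁻¹) * y⁻¹ := by
                    rw [pow_succ']; group
                _ = y * x * y⁻¹ * (y * z ^ n * y⁻¹) := by rw [ihn]; group
                _ = x * z * z ^ n := by rw [hy, ← ((hzc y hyH).pow_left n).eq, mul_inv_cancel_right]
                _ = x * z ^ (n + 1) := by rw [pow_succ', mul_assoc]
          obtain ⟨k', hk'⟩ := mem_powers_iff_mem_zpowers.2 (zpow_mem (Subgroup.mem_zpowers z) i)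
          have hh' : (y ^ k')⁻¹ * h ∈ H' := by
            refine ⟨H.mul_mem (H.inv_mem (H.pow_mem hyH _)) hh, Subgroup.mem_centralizer_singleton_iff.2 ?_⟩
            have e1 : h * x * h⁻¹ = x * z ^ i := by
              have := ((hzc x hxH).zpow_left i).eq
              rw [← this, hi]; group
            have e2 : y ^ k' * x * (y ^ k')⁻¹ = h * x * h⁻¹ := by
              rw [e1, hyn k', show z ^ k' = z ^ i from hk']
            calc (y ^ k')⁻¹ * h * x = (y ^ k')⁻¹ * (h * x * h⁻¹) * h := by group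
              _ = (y ^ k')⁻¹ * (y ^ k' * x * (y ^ k')⁻¹) * h := by rw [e2]
              _ = x * ((y ^ k')⁻¹ * h) := by group
          have h1 : Commute ((y ^ k')⁻¹ * h) u := Subgroup.mem_centralizer_iff.1 hu' _ hh'
          have h2 : Commute (y ^ k') u :=
            ((show Commute u y from Subgroup.mem_centralizer_singleton_iff.1 huy).pow_right k').symm
          have := h2.mul_left h1
          rwa [mul_inv_cancel_left] at this
        · rintro ⟨huH, hu⟩
          have hu' := Subgroup.mem_centralizer_iff.1 hu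
          exact ⟨⟨⟨huH, Subgroup.mem_centralizer_singleton_iff.2 (hu' x hxH).symm⟩,
            Subgroup.mem_centralizer_iff.2 fun h hh => hu' h hh.1⟩,
            Subgroup.mem_centralizer_singleton_iff.2 (hu' y hyH).symm⟩
      rw [hHcard, hm1, hZcard, hZ]
      ring
    · rw [hcard, pow_succ, pow_mul]
      exact Nat.pow_le_pow_left hm2 p

/-- The number of elements of a symplectic group is small against the module. -/
theorem small_count {p m n : ℕ} (hp3 : 3 ≤ p) (hn : (p + 1) ^ p ^ m ≤ n)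
    (h : (p - 1) * (n ^ p - 1) ≤ p ^ (2 * (m + 1) + 1) * (n - 1)) : False := by
  have hn1 : 4 ≤ n := le_trans (le_trans (by omega) (Nat.le_self_pow (pow_pos (by omega) m).ne' (p + 1))) hn
  have h1 : (n - 1) * n ^ (p - 1) ≤ n ^ p - 1 := by
    rw [Nat.sub_mul, one_mul, ← pow_succ', Nat.sub_add_cancel (by omega)]
    exact Nat.sub_le_sub_left (Nat.one_le_pow _ _ (by omega)) _
  have h2 : (p - 1) * n ^ (p - 1) ≤ p ^ (2 * (m + 1) + 1) := by
    refine Nat.le_of_mul_le_mul_left ?_ (show 0 < n - 1 by omega)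
    calc (n - 1) * ((p - 1) * n ^ (p - 1)) = (p - 1) * ((n - 1) * n ^ (p - 1)) := by ring
      _ ≤ (p - 1) * (n ^ p - 1) := Nat.mul_le_mul_left _ h1
      _ ≤ _ := by rw [mul_comm (n - 1)]; exact h
  have h3 : (p + 1) ^ (p ^ m * (p - 1)) ≤ n ^ (p - 1) := by
    rw [pow_mul]; exact Nat.pow_le_pow_left hn _
  have h4 : p ^ (2 * (m + 1) + 1) < 2 * (p + 1) ^ (p ^ m * (p - 1)) := by
    rcases Nat.eq_zero_or_pos m with rfl | hm
    · rw [pow_zero, one_mul]
      by_cases hp4 : p = 3
      · subst hp4; norm_num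
      have : (p + 1) ^ 4 ≤ (p + 1) ^ (p - 1) ∨ p = 4 := by
        by_cases p = 4
        · exact Or.inr ‹_›
        · exact Or.inl (Nat.pow_le_pow_right (by omega) (by omega))
      rcases this with h' | rfl
      · have h7 : p ^ 3 ≤ (p + 1) ^ 3 := Nat.pow_le_pow_left (by omega) 3
        have h8 : (p + 1) ^ 3 ≤ (p + 1) ^ 4 := Nat.pow_le_pow_right (by omega) (by omega)
        have h9 : 0 < (p + 1) ^ (p - 1) := pow_pos (by omega) _
        show p ^ 3 < _
        omega
      · norm_num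
    · have hlow : ∀ k, 2 * k + 3 ≤ 2 * 3 ^ k + 1 := fun k => by
        induction k with
        | zero => norm_num
        | succ k ih => rw [pow_succ]; omega
      have hm2 : 2 * (m + 1) + 1 ≤ p ^ m * (p - 1) := by
        have h3m : 3 ≤ 3 ^ m := Nat.le_self_pow (by omega) 3
        have h5 : 3 ^ m ≤ p ^ m := Nat.pow_le_pow_left hp3 m
        have h6 : m + 2 ≤ 3 ^ m := by
          have := hlow m
          by_cases hm1 : m = 1
          · subst hm1; norm_num
          · obtain ⟨k, rfl⟩ : ∃ k, m = k + 2 := ⟨m - 2, by omega⟩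
            have h7 := hlow k
            rw [pow_add]; omega
        calc 2 * (m + 1) + 1 ≤ 2 * 3 ^ m := by omega
          _ ≤ p ^ m * (p - 1) := by rw [mul_comm]; exact Nat.mul_le_mul h5 (by omega)
      calc p ^ (2 * (m + 1) + 1) ≤ (p + 1) ^ (2 * (m + 1) + 1) := Nat.pow_le_pow_left (by omega) _
        _ ≤ (p + 1) ^ (p ^ m * (p - 1)) := Nat.pow_le_pow_right (by omega) hm2
        _ < 2 * (p + 1) ^ (p ^ m * (p - 1)) := by
          have : 0 < (p + 1) ^ (p ^ m * (p - 1)) := pow_pos (by omega) _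
          omega
  have h5 : 2 * n ^ (p - 1) ≤ (p - 1) * n ^ (p - 1) := Nat.mul_le_mul_right _ (by omega)
  omega

/-- A normal `p`-subgroup of a group without block systems has a regular vector. -/
theorem exists_regular_vector [Nontrivial W] (hp2 : p ≠ 2) (hcop : (Nat.card W).Coprime p)
    (Q R : Subgroup (AddMonoid.End W)ˣ) (hn : ∀ u ∈ Q, ∀ r ∈ R, u * r * u⁻¹ ∈ R) (hR : IsPGroup p R)
    (hns : ∀ F : Finset (AddMonoid.End W), Sys Q F → F.card ≤ 1) :
    ∃ w : W, ∀ r ∈ R, (r : AddMonoid.End W) w = w → r = 1 := by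
  classical
  haveI := Fintype.ofFinite (AddMonoid.End W)ˣ
  obtain ⟨c, hc⟩ := exists_inv_cast hcop
  haveI : Nontrivial (AddMonoid.End W) := by
    obtain ⟨w, hw⟩ := exists_ne (0 : W)
    exact ⟨⟨1, 0, fun e => hw (DFunLike.congr_fun e w)⟩⟩
  obtain ⟨w0, hw0⟩ := exists_ne (0 : W)
  -- fixed-point-free abelian normal subgroups of exponent `p`
  have hfpf : ∀ B : Subgroup (AddMonoid.End W)ˣ, (∀ a ∈ B, ∀ b ∈ B, Commute a b) → (∀ b ∈ B, b ^ p = 1) →
      (∀ u ∈ Q, ∀ b ∈ B, u * b * u⁻¹ ∈ B) → ∀ b ∈ B, b ≠ 1 → avg p c b = 0 := by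
    intro B hBab hBp hBQ b hb hb1
    refine ((trivial_of_noSplit Q hns (((Finset.univ).filter (· ∈ B)).image (avg p c)) ?_ ?_ ?_ _
      (Finset.mem_image.2 ⟨b, by simpa using hb, rfl⟩)).resolve_right fun h =>
      hb1 (eq_one_of_avg_eq_one (hBp b hb) h))
    · intro a ha a' ha'
      obtain ⟨s, hs, rfl⟩ := Finset.mem_image.1 ha
      obtain ⟨t, ht, rfl⟩ := Finset.mem_image.1 ha'
      exact avg_commute_avg (hBab s (by simpa using hs) t (by simpa using ht))
    · intro a ha
      obtain ⟨s, hs, rfl⟩ := Finset.mem_image.1 ha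
      exact avg_idem (hBp s (by simpa using hs)) hc
    · intro u hu a ha
      obtain ⟨s, hs, rfl⟩ := Finset.mem_image.1 ha
      exact Finset.mem_image.2 ⟨u * s * u⁻¹, by simpa using hBQ u hu s (by simpa using hs),
        (avg_conj u s).symm⟩
  have hcyc : ∀ B : Subgroup (AddMonoid.End W)ˣ, (∀ a ∈ B, ∀ b ∈ B, Commute a b) → (∀ b ∈ B, b ^ p = 1) →
      (∀ u ∈ Q, ∀ b ∈ B, u * b * u⁻¹ ∈ B) → ∀ a ∈ B, a ≠ 1 → ∀ b ∈ B, b ∈ Subgroup.zpowers a := by
    intro B hBab hBp hBQ a ha ha1 b hb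
    by_contra hba
    have hoa : orderOf a = p := orderOf_eq_prime (hBp a ha) ha1
    have h := sum_avg_translate hp.out.pos hc (hBab a ha b hb) fun j hj1 hj2 =>
      hfpf B hBab hBp hBQ _ (pow_mem ha j) fun e => by
        have := orderOf_dvd_of_pow_eq_one e
        rw [hoa] at this
        exact absurd (Nat.le_of_dvd (by omega) this) (by omega)
    rw [Finset.sum_eq_zero fun i _ => hfpf B hBab hBp hBQ _ (mul_mem hb (pow_mem ha i)) fun e => hba ?_] at h
    · exact zero_ne_one h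
    · rw [eq_inv_of_mul_eq_one_left e]; exact inv_mem (pow_mem (Subgroup.mem_zpowers a) i)
  -- `R` is of symplectic type, hence of class two
  have hsymp : ∀ A : Subgroup R, A.Characteristic → IsMulCommutative A → IsCyclic A := by
    intro A hA hAc
    have hAQ : ∀ u ∈ Q, ∀ a : R, a ∈ A →
        ∃ a' : R, a' ∈ A ∧ (a' : (AddMonoid.End W)ˣ) = u * a * u⁻¹ := by
      intro u hu a ha
      let α : R ≃* R :=
        { toFun := fun r => ⟨u * r * u⁻¹, hn u hu r r.2⟩
          invFun := fun r => ⟨u⁻¹ * r * u, by simpa using hn u⁻¹ (inv_mem hu) r r.2⟩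
          left_inv := fun r => Subtype.ext (by simp [mul_assoc])
          right_inv := fun r => Subtype.ext (by simp [mul_assoc])
          map_mul' := fun r r' => Subtype.ext (by simp [mul_assoc]) }
      exact ⟨α a, Transfer.SympType.char_apply hA α ha, rfl⟩
    let A' : Subgroup (AddMonoid.End W)ˣ := A.map R.subtype
    have hA'ab : ∀ a ∈ A', ∀ b ∈ A', Commute a b := by
      rintro _ ⟨a, ha, rfl⟩ _ ⟨b, hb, rfl⟩
      exact congrArg R.subtype (congrArg Subtype.val (hAc.is_comm.comm ⟨a, ha⟩ ⟨b, hb⟩))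
    let B : Subgroup (AddMonoid.End W)ˣ :=
      { carrier := {a | a ∈ A' ∧ a ^ p = 1}
        one_mem' := ⟨one_mem _, one_pow p⟩
        mul_mem' := fun {a b} ha hb => ⟨mul_mem ha.1 hb.1, by
          rw [(hA'ab a ha.1 b hb.1).mul_pow, ha.2, hb.2, one_mul]⟩
        inv_mem' := fun {a} ha => ⟨inv_mem ha.1, by rw [inv_pow, ha.2, inv_one]⟩ }
    have hBQ : ∀ u ∈ Q, ∀ b ∈ B, u * b * u⁻¹ ∈ B := by
      rintro u hu b ⟨⟨a, ha, rfl⟩, hb⟩
      obtain ⟨a', ha', e⟩ := hAQ u hu a ha
      refine ⟨⟨a', ha', e⟩, ?_⟩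
      rw [conj_pow, hb]; group
    refine OddLocal.isCyclic_of_uniqueOrderP _ (hR.to_subgroup A) ?_
      (Or.inr fun a b => hAc.is_comm.comm a b) le_rfl
    intro a b ha hb ha1
    have haB : ((a : R) : (AddMonoid.End W)ˣ) ∈ B :=
      ⟨⟨a, a.2, rfl⟩, congrArg (fun t : A => ((t : R) : (AddMonoid.End W)ˣ)) ha⟩
    have hbB : ((b : R) : (AddMonoid.End W)ˣ) ∈ B :=
      ⟨⟨b, b.2, rfl⟩, congrArg (fun t : A => ((t : R) : (AddMonoid.End W)ˣ)) hb⟩
    obtain ⟨k, hk⟩ := Subgroup.mem_zpowers_iff.1 (hcyc B (fun s hs t ht => hA'ab s hs.1 t ht.1)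
      (fun s hs => hs.2) hBQ _ haB (fun e => ha1 (Subtype.ext (Subtype.ext e))) _ hbB)
    exact Subgroup.mem_zpowers_iff.2 ⟨k, Subtype.ext (Subtype.ext (by simpa using hk))⟩
  have hclass : ∀ a b : R, ∀ r : R, Commute (a * b * a⁻¹ * b⁻¹) r := by
    obtain ⟨E, C, hEC, htop, hE, hC⟩ := Transfer.SympType.main hR hsymp
    have hCc : IsCyclic C := hC.resolve_right fun h => hp2 h.1
    have hgen : Subgroup.closure ((E : Set R) ∪ C) = ⊤ := by
      rw [Subgroup.closure_union, Subgroup.closure_eq, Subgroup.closure_eq, htop]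
    have hcen : ∀ s : R, (∀ t ∈ (E : Set R) ∪ C, Commute s t) → ∀ r, Commute s r := by
      intro s hs r
      have h1 : (⊤ : Subgroup R) ≤ Subgroup.centralizer {s} := by
        rw [← hgen, Subgroup.closure_le]
        exact fun t ht => Subgroup.mem_centralizer_singleton_iff.2 (hs t ht).symm.eq
      exact (Subgroup.mem_centralizer_singleton_iff.1 (h1 (Subgroup.mem_top r)) : Commute r s).symm
    have hgg : ∀ s ∈ (E : Set R) ∪ C, ∀ t ∈ (E : Set R) ∪ C, ∀ r, Commute (s * t * s⁻¹ * t⁻¹) r := by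
      have h1 : ∀ s t : R, Commute s t → ∀ r, Commute (s * t * s⁻¹ * t⁻¹) r := fun s t h r => by
        rw [h.eq, mul_inv_cancel_right, mul_inv_cancel]; exact Commute.one_left r
      rintro s (hs | hs) t (ht | ht)
      · rcases hE with hE | hE
        · rw [hE] at hs
          rw [Subgroup.mem_bot.1 hs]
          exact h1 1 t (Commute.one_left t)
        · refine hcen _ fun r hr => ?_
          rcases hr with hr | hr
          · have h2 : ⁅(⟨s, hs⟩ : E), (⟨t, ht⟩ : E)⁆ ∈ Subgroup.center E := by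
              rw [← hE.1.2.2]
              exact Subgroup.commutator_mem_commutator (Subgroup.mem_top _) (Subgroup.mem_top _)
            have h3 := congrArg Subtype.val (Subgroup.mem_center_iff.1 h2 ⟨r, hr⟩)
            rw [commutatorElement_def] at h3
            exact h3.symm
          · have hst : s * t * s⁻¹ * t⁻¹ ∈ E := mul_mem (mul_mem (mul_mem hs ht) (inv_mem hs)) (inv_mem ht)
            exact hEC _ hst r hr
      · exact h1 s t (hEC s hs t ht)
      · exact h1 s t (hEC t ht s hs).symm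
      · refine h1 s t ?_
        obtain ⟨g, hg⟩ := hCc.exists_generator
        obtain ⟨i, hi⟩ := Subgroup.mem_zpowers_iff.1 (hg ⟨s, hs⟩)
        obtain ⟨j, hj⟩ := Subgroup.mem_zpowers_iff.1 (hg ⟨t, ht⟩)
        have e1 : s = (g : R) ^ i := (congrArg Subtype.val hi).symm
        have e2 : t = (g : R) ^ j := (congrArg Subtype.val hj).symm
        rw [e1, e2]; exact (Commute.refl _).zpow_zpow i j
    -- extend from generators
    have hstep : ∀ s : R, (∀ t ∈ (E : Set R) ∪ C, ∀ r, Commute (s * t * s⁻¹ * t⁻¹) r) →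
        ∀ t r, Commute (s * t * s⁻¹ * t⁻¹) r := by
      intro s hs t
      induction (show t ∈ Subgroup.closure ((E : Set R) ∪ C) from hgen ▸ Subgroup.mem_top t)
        using Subgroup.closure_induction with
      | mem t ht => exact hs t ht
      | one => intro r; simpa using Commute.one_left r
      | mul t u _ _ iht ihu =>
        intro r
        have e : s * (t * u) * s⁻¹ * (t * u)⁻¹ = s * t * s⁻¹ * t⁻¹ * (s * u * s⁻¹ * u⁻¹) := by
          calc s * (t * u) * s⁻¹ * (t * u)⁻¹ = s * t * s⁻¹ * (s * u * s⁻¹ * u⁻¹) * t⁻¹ := by group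
            _ = s * t * s⁻¹ * (t⁻¹ * (s * u * s⁻¹ * u⁻¹)) := by rw [mul_assoc, (ihu t⁻¹).eq]
            _ = _ := by group
        rw [e]; exact (iht r).mul_left (ihu r)
      | inv t _ iht =>
        intro r
        have e : s * t⁻¹ * s⁻¹ * t⁻¹⁻¹ = (s * t * s⁻¹ * t⁻¹)⁻¹ := by
          calc s * t⁻¹ * s⁻¹ * t⁻¹⁻¹ = t⁻¹ * (s * t * s⁻¹ * t⁻¹)⁻¹ * t := by group
            _ = _ := by rw [← ((iht t⁻¹).inv_left).eq]; group
        rw [e]; exact (iht r).inv_left
    intro a
    refine hstep a fun t ht => ?_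
    intro r
    have h1 := (hstep t fun u hu => hgg t ht u hu) a r
    have e : a * t * a⁻¹ * t⁻¹ = (t * a * t⁻¹ * a⁻¹)⁻¹ := by group
    rw [e]; exact h1.inv_left
  -- the elements of order dividing `p`
  have hpc : p ∣ p.choose 2 := hp.out.dvd_choose_self (by norm_num) (by
    have := hp.out.two_le; omega)
  let D : Subgroup (AddMonoid.End W)ˣ :=
    { carrier := {x | x ∈ R ∧ x ^ p = 1}
      one_mem' := ⟨one_mem R, one_pow p⟩
      mul_mem' := fun {a b} ha hb => ⟨mul_mem ha.1 hb.1, by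
        have hcomm : ∀ s ∈ ({a, b} : Set (AddMonoid.End W)ˣ), Commute (b * a * b⁻¹ * a⁻¹) s := by
          intro s hs
          have hsR : s ∈ R := by
            rcases hs with rfl | rfl
            · exact ha.1
            · exact hb.1
          exact congrArg Subtype.val (hclass ⟨b, hb.1⟩ ⟨a, ha.1⟩ ⟨s, hsR⟩).eq
        rw [Transfer.SympType.pow_mul' hcomm, ha.2, hb.2, one_mul, one_mul]
        have h1 := Transfer.SympType.conj_pow_comm (c := b * a * b⁻¹ * a⁻¹) rfl
          (hcomm b (by simp)) p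
        rw [hb.2] at h1
        obtain ⟨k, hk⟩ := hpc
        rw [hk, pow_mul, ← h1]; simp⟩
      inv_mem' := fun {a} ha => ⟨inv_mem ha.1, by rw [inv_pow, ha.2, inv_one]⟩ }
  have hDQ : ∀ u ∈ Q, ∀ x ∈ D, u * x * u⁻¹ ∈ D := fun u hu x hx =>
    ⟨hn u hu x hx.1, by rw [conj_pow, hx.2]; group⟩
  set ZD := D ⊓ Subgroup.centralizer (D : Set (AddMonoid.End W)ˣ) with hZD
  have hZab : ∀ a ∈ ZD, ∀ b ∈ ZD, Commute a b := fun a ha b hb =>
    Subgroup.mem_centralizer_iff.1 hb.2 a ha.1
  have hZQ : ∀ u ∈ Q, ∀ x ∈ ZD, u * x * u⁻¹ ∈ ZD := by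
    intro u hu x hx
    refine ⟨hDQ u hu x hx.1, Subgroup.mem_centralizer_iff.2 fun d hd => ?_⟩
    have h1 := Subgroup.mem_centralizer_iff.1 hx.2 _ (hDQ u⁻¹ (inv_mem hu) d hd)
    rw [inv_inv] at h1
    calc d * (u * x * u⁻¹) = u * (u⁻¹ * d * u * x) * u⁻¹ := by group
      _ = u * (x * (u⁻¹ * d * u)) * u⁻¹ := by rw [h1]
      _ = u * x * u⁻¹ * d := by group
  have hZfpf : ∀ x ∈ ZD, x ≠ 1 → avg p c x = 0 := hfpf ZD hZab (fun x hx => hx.1.2) hZQ
  have hDcomm : ∀ a ∈ D, ∀ b ∈ D, a * b * a⁻¹ * b⁻¹ ∈ ZD := fun a ha b hb =>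
    ⟨D.mul_mem (D.mul_mem (D.mul_mem ha hb) (D.inv_mem ha)) (D.inv_mem hb), Subgroup.mem_centralizer_iff.2
      fun d hd => (congrArg Subtype.val (hclass ⟨a, ha.1⟩ ⟨b, hb.1⟩ ⟨d, hd.1⟩).eq).symm⟩
  -- reduce to elements of `D`
  suffices hD : ∃ w : W, w ≠ 0 ∧ ∀ x ∈ D, (x : AddMonoid.End W) w = w → x = 1 by
    obtain ⟨w, -, hw⟩ := hD
    refine ⟨w, fun r hr hrw => ?_⟩
    obtain ⟨j, hj⟩ := IsPGroup.iff_orderOf.1 hR ⟨r, hr⟩
    rw [Subgroup.orderOf_mk] at hj
    cases j with
    | zero => exact orderOf_eq_one_iff.1 hj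
    | succ j =>
      exfalso
      have hfix : ∀ k : ℕ, ((r ^ k : (AddMonoid.End W)ˣ) : AddMonoid.End W) w = w := fun k => by
        induction k with
        | zero => rfl
        | succ k ih => rw [pow_succ, Units.val_mul, apply_mul, hrw, ih]
      have h1 := hw (r ^ p ^ j) ⟨pow_mem hr _, by rw [← pow_mul, ← pow_succ, ← hj, pow_orderOf_eq_one]⟩
        (hfix _)
      have h2 := orderOf_dvd_of_pow_eq_one h1
      rw [hj] at h2
      exact absurd ((Nat.pow_dvd_pow_iff_le_right hp.out.one_lt).1 h2) (by omega)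
  by_cases hDab : ∀ a ∈ D, ∀ b ∈ D, Commute a b
  · refine ⟨w0, hw0, fun x hx hxw => by_contra fun hx1 => ?_⟩
    have := avg_apply_fixed hc hxw
    rw [hZfpf x ⟨hx, Subgroup.mem_centralizer_iff.2 fun d hd => hDab d hd x hx⟩ hx1] at this
    exact hw0 this.symm
  push Not at hDab
  obtain ⟨a, ha, b, hb, hab⟩ := hDab
  set z := a * b * a⁻¹ * b⁻¹ with hzdef
  have hzZ : z ∈ ZD := hDcomm a ha b hb
  have hz1 : z ≠ 1 := fun e => hab (mul_inv_eq_iff_eq_mul.1 (mul_inv_eq_one.1 e))
  have hoz : orderOf z = p := orderOf_eq_prime hzZ.1.2 hz1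
  have hzc : ∀ h ∈ D, Commute z h := fun h hh => (Subgroup.mem_centralizer_iff.1 hzZ.2 h hh).symm
  have hzavg : ∀ j : ℕ, 1 ≤ j → j < p → avg p c (z ^ j) = 0 := fun j hj1 hj2 =>
    hZfpf _ (pow_mem hzZ j) fun e => by
      have := orderOf_dvd_of_pow_eq_one e
      rw [hoz] at this
      exact absurd (Nat.le_of_dvd (by omega) this) (by omega)
  have hcommz : ∀ s ∈ D, ∀ t ∈ D, s * t * s⁻¹ * t⁻¹ ∈ Subgroup.zpowers z := fun s hs t ht =>
    hcyc ZD hZab (fun x hx => hx.1.2) hZQ z hzZ hz1 _ (hDcomm s hs t ht)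
  obtain ⟨m, hm1, hm2⟩ := sympl hc _ D ⊤ z rfl (fun _ _ _ _ => AddSubgroup.mem_top _)
    (fun e => hw0 (AddSubgroup.mem_bot.1 (e ▸ AddSubgroup.mem_top w0))) (fun h hh => hh.2) hzZ.1 hoz hzc
    hcommz hzavg
  have hZcard : Nat.card ZD = p := by
    rw [← hoz, ← Nat.card_zpowers]
    exact le_antisymm (Subgroup.card_le_of_le (hcyc ZD hZab (fun x hx => hx.1.2) hZQ z hzZ hz1))
      (Subgroup.card_le_of_le ((Subgroup.zpowers_le).2 hzZ))
  rw [← hZD, hZcard] at hm1
  rw [AddSubgroup.card_top] at hm2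
  have hfixcard : ∀ x ∈ D, x ∉ ZD → Nat.card W = Nat.card (fixIn (⊤ : AddSubgroup W) x) ^ p := by
    intro x hx hxZ
    have hnc : ∃ y ∈ D, ¬ Commute y x := by
      by_contra h
      push Not at h
      exact hxZ ⟨hx, Subgroup.mem_centralizer_iff.2 h⟩
    obtain ⟨y, hy, e⟩ := exists_shift hx hcommz hzc hnc hoz
    have := card_fix_pow hc D ⊤ (fun _ _ _ _ => AddSubgroup.mem_top _) hx hy hzZ.1 hx.2 hzZ.1.2
      (hzc x hx) (hzc y hy) e hzavg
    rwa [AddSubgroup.card_top] at this
  by_contra hne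
  push Not at hne
  have haZ : a ∉ ZD := fun h => hab (Subgroup.mem_centralizer_iff.1 h.2 b hb).symm
  set n := Nat.card (fixIn (⊤ : AddSubgroup W) a)
  have hWn : Nat.card W = n ^ p := hfixcard a ha haZ
  have hm0 : m ≠ 0 := fun h => by
    rw [h, mul_zero, pow_zero, one_mul] at hm1
    have := Subgroup.eq_of_le_of_card_ge (show ZD ≤ D from inf_le_left) (by rw [hm1, hZcard])
    exact haZ (this ▸ ha)
  obtain ⟨m, rfl⟩ := Nat.exists_eq_succ_of_ne_zero hm0
  refine small_count (p := p) (m := m) (n := n) (by have := hp.out.two_le; omega) ?_ ?_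
  · rw [hWn, pow_succ, pow_mul] at hm2
    exact (Nat.pow_le_pow_iff_left hp.out.ne_zero).1 hm2
  haveI := Fintype.ofFinite W
  haveI := Fintype.ofFinite D
  let s : Finset D := Finset.univ.filter fun x => (x : (AddMonoid.End W)ˣ) ∉ ZD
  let t : Finset W := Finset.univ.erase 0
  let r : D → W → Prop := fun x w => ((x : (AddMonoid.End W)ˣ) : AddMonoid.End W) w = w
  have hdc := Finset.card_nsmul_le_card_nsmul' (r := r) (s := s) (t := t) (n := p - 1) (m := n - 1) ?_ ?_
  · simp only [smul_eq_mul] at hdc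
    have ht : t.card = n ^ p - 1 := by
      rw [Finset.card_erase_of_mem (Finset.mem_univ _), Finset.card_univ, ← Nat.card_eq_fintype_card, hWn]
    have hs : s.card ≤ p ^ (2 * (m + 1) + 1) := by
      refine (Finset.card_le_univ s).trans_eq ?_
      rw [← Nat.card_eq_fintype_card, hm1, pow_succ p (2 * (m + 1))]
    calc (p - 1) * (n ^ p - 1) = t.card * (p - 1) := by rw [ht, mul_comm]
      _ ≤ s.card * (n - 1) := hdc
      _ ≤ p ^ (2 * (m + 1) + 1) * (n - 1) := Nat.mul_le_mul_right _ hs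
  · intro w hw
    obtain ⟨x, hx, hxw, hx1⟩ := hne w (Finset.mem_erase.1 hw).1
    have hox : orderOf x = p := orderOf_eq_prime hx.2 hx1
    let f : Finset.Icc 1 (p - 1) → D := fun j => ⟨x ^ (j : ℕ), pow_mem hx _⟩
    have hpow : ∀ j : ℕ, ((x ^ j : (AddMonoid.End W)ˣ) : AddMonoid.End W) w = w := fun j => by
      induction j with
      | zero => rfl
      | succ j ih => rw [pow_succ, Units.val_mul, apply_mul, hxw, ih]
    have hf : Function.Injective f := by
      intro i j e
      have hi := Finset.mem_Icc.1 i.2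
      have hj := Finset.mem_Icc.1 j.2
      exact Subtype.ext (pow_injOn_Iio_orderOf (x := x) (by rw [Set.mem_Iio, hox]; omega)
        (by rw [Set.mem_Iio, hox]; omega) (congrArg Subtype.val e))
    calc p - 1 = (Finset.univ.image f).card := by
          rw [Finset.card_image_of_injective _ hf, Finset.card_univ, Fintype.card_coe, Nat.card_Icc]; omega
      _ ≤ _ := by
        refine Finset.card_le_card fun d hd => ?_
        obtain ⟨j, -, rfl⟩ := Finset.mem_image.1 hd
        refine Finset.mem_filter.2 ⟨Finset.mem_filter.2 ⟨Finset.mem_univ _, fun hZ => ?_⟩, hpow j⟩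
        have := avg_apply_fixed hc (hpow j)
        have hj := Finset.mem_Icc.1 j.2
        rw [hZfpf _ hZ fun e => by
          have := orderOf_dvd_of_pow_eq_one e
          rw [hox] at this
          exact absurd (Nat.le_of_dvd (by omega) this) (by omega)] at this
        exact (Finset.mem_erase.1 hw).1 this.symm
  · intro x hx
    have h1 := hfixcard x x.2 (Finset.mem_filter.1 hx).2
    have h2 : Nat.card (fixIn (⊤ : AddSubgroup W) (x : (AddMonoid.End W)ˣ)) = n :=
      Nat.pow_left_injective hp.out.ne_zero (h1.symm.trans hWn)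
    have h3 : Finset.bipartiteAbove r t x ⊆
        ((Finset.univ : Finset W).filter fun w => w ∈ fixIn (⊤ : AddSubgroup W) (x : (AddMonoid.End W)ˣ)).erase 0 := by
      intro w hw
      have hw' := Finset.mem_filter.1 hw
      exact Finset.mem_erase.2 ⟨(Finset.mem_erase.1 hw'.1).1,
        Finset.mem_filter.2 ⟨Finset.mem_univ _, AddSubgroup.mem_top _, hw'.2⟩⟩
    refine (Finset.card_le_card h3).trans ?_
    rw [Finset.card_erase_of_mem (Finset.mem_filter.2 ⟨Finset.mem_univ _, zero_mem _⟩),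
      ← Fintype.card_subtype, ← Nat.card_eq_fintype_card]
    exact le_of_eq (congrArg (· - 1) h2)

end Cfsg.Agent.FGS4.ClassSubnormal
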