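import Cfsg.Agent.FGS4.ClassSubnormal.SetOrbit
import Cfsg.Agent.FGS4.ClassSubnormal.Primitive

/-! # A `p`-element fixing a conjugate of every vector acts trivially -/

set_option linter.style.haveILetI false

namespace Cfsg.Agent.FGS4.ClassSubnormal

section Refine

variable {E : Type*} [Ring E]

theorem refine_sys (Q : Subgroup Eˣ) {F : Finset E} (hF : Sys Q F) {f : E} (hf : f ∈ F) (L : Finset E)
    (hne : ∀ e ∈ L, e ≠ 0) (horth : ∀ e ∈ L, ∀ e' ∈ L, e ≠ e' → e * e' = 0) (hsum : ∑ e ∈ L, e = f)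
    (hleft : ∀ e ∈ L, f * e = e) (hright : ∀ e ∈ L, e * f = e)
    (hconj : ∀ u ∈ Q, (u : E) * f * (↑u⁻¹ : E) = f → ∀ e ∈ L, (u : E) * e * (↑u⁻¹ : E) ∈ L)
    (hcard : 2 ≤ L.card) : ∃ F' : Finset E, Sys Q F' ∧ F.card < F'.card := by
  classical
  set O := F.filter (fun f' => ∃ u ∈ Q, (u : E) * f * (↑u⁻¹ : E) = f') with hO
  have hg : ∀ o : O, ∃ u ∈ Q, (u : E) * f * (↑u⁻¹ : E) = o := fun o => (Finset.mem_filter.1 o.2).2
  choose g hgQ hgf using hg
  let τ : O × L → E := fun x => (g x.1 : E) * (x.2 : E) * (↑(g x.1)⁻¹ : E)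
  have hidem : ∀ e ∈ L, e * e = e := by
    intro e he
    conv_rhs => rw [← hright e he, ← hsum, Finset.mul_sum]
    rw [Finset.sum_eq_single e (fun b hb hbe => horth e he b hb (Ne.symm hbe)) (fun h => absurd he h)]
  have hτne : ∀ x, τ x ≠ 0 := fun x h => hne _ x.2.2 (by simpa [τ] using h)
  have hτl : ∀ x : O × L, (x.1 : E) * τ x = τ x := fun x => by
    calc (x.1 : E) * τ x = (g x.1 : E) * f * (↑(g x.1)⁻¹ : E) * ((g x.1 : E) * x.2 * (↑(g x.1)⁻¹ : E)) := by
          rw [hgf]
      _ = (g x.1 : E) * (f * x.2) * (↑(g x.1)⁻¹ : E) := by simp [mul_assoc]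
      _ = τ x := by rw [hleft _ x.2.2]
  have hτr : ∀ x : O × L, τ x * (x.1 : E) = τ x := fun x => by
    calc τ x * (x.1 : E) = (g x.1 : E) * x.2 * (↑(g x.1)⁻¹ : E) * ((g x.1 : E) * f * (↑(g x.1)⁻¹ : E)) := by
          rw [hgf]
      _ = (g x.1 : E) * (x.2 * f) * (↑(g x.1)⁻¹ : E) := by simp [mul_assoc]
      _ = τ x := by rw [hright _ x.2.2]
  have hττ : ∀ x, τ x * τ x = τ x := fun x => by
    simp only [τ, mul_assoc, Units.inv_mul_cancel_left]
    rw [← mul_assoc (x.2 : E) (x.2 : E), hidem _ x.2.2]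
  have hτorth : ∀ x y, x ≠ y → τ x * τ y = 0 := by
    rintro ⟨o, e⟩ ⟨o', e'⟩ hxy
    by_cases ho : o = o'
    · subst ho
      have hee : (e : E) ≠ e' := fun h => hxy (by rw [Subtype.ext h])
      simp only [τ, mul_assoc, Units.inv_mul_cancel_left]
      rw [← mul_assoc (e : E) (e' : E), horth _ e.2 _ e'.2 hee]
      simp
    · rw [← hτr (o, e), ← hτl (o', e'), mul_assoc, ← mul_assoc (o : E),
        hF.orth _ (Finset.mem_filter.1 o.2).1 _ (Finset.mem_filter.1 o'.2).1 (fun h => ho (Subtype.ext h))]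
      simp
  have hinj : Function.Injective τ := fun x y h => by
    by_contra hne'
    have := hτorth x y hne'
    rw [← h, hττ] at this
    exact hτne x this
  have hdisj : Disjoint (F \ O) (Finset.univ.image τ) := by
    rw [Finset.disjoint_left]
    intro h hh hh'
    obtain ⟨hhF, hhO⟩ := Finset.mem_sdiff.1 hh
    obtain ⟨x, -, rfl⟩ := Finset.mem_image.1 hh'
    refine hτne x ?_
    have h1 := hF.orth _ hhF _ (Finset.mem_filter.1 x.1.2).1 (fun e => hhO (e ▸ x.1.2))
    calc τ x = τ x * (x.1 : E) := (hτr x).symm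
      _ = 0 := h1
  refine ⟨(F \ O) ∪ Finset.univ.image τ, ⟨?_, ?_, ?_, ?_⟩, ?_⟩
  · intro h hh
    rcases Finset.mem_union.1 hh with hh | hh
    · exact hF.ne_zero h (Finset.mem_sdiff.1 hh).1
    · obtain ⟨x, -, rfl⟩ := Finset.mem_image.1 hh; exact hτne x
  · intro h hh h' hh' hne'
    rcases Finset.mem_union.1 hh with hh | hh <;> rcases Finset.mem_union.1 hh' with hh' | hh'
    · exact hF.orth h (Finset.mem_sdiff.1 hh).1 h' (Finset.mem_sdiff.1 hh').1 hne'
    · obtain ⟨x, -, rfl⟩ := Finset.mem_image.1 hh'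
      obtain ⟨hhF, hhO⟩ := Finset.mem_sdiff.1 hh
      rw [← hτl x, ← mul_assoc, hF.orth _ hhF _ (Finset.mem_filter.1 x.1.2).1
        (fun e => hhO (e ▸ x.1.2)), zero_mul]
    · obtain ⟨x, -, rfl⟩ := Finset.mem_image.1 hh
      obtain ⟨hhF, hhO⟩ := Finset.mem_sdiff.1 hh'
      rw [← hτr x, mul_assoc, hF.orth _ (Finset.mem_filter.1 x.1.2).1 _ hhF
        (fun e => hhO (e ▸ x.1.2)), mul_zero]
    · obtain ⟨x, -, rfl⟩ := Finset.mem_image.1 hh
      obtain ⟨y, -, rfl⟩ := Finset.mem_image.1 hh'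
      exact hτorth x y fun e => hne' (by rw [e])
  · rw [Finset.sum_union hdisj, Finset.sum_image fun a _ b _ h => hinj h, Fintype.sum_prod_type]
    have h1 : ∀ o : O, ∑ e : L, τ (o, e) = (o : E) := fun o => by
      simp only [τ]
      rw [← Finset.sum_mul, ← Finset.mul_sum, Finset.sum_coe_sort L (fun e => e), hsum, hgf]
    rw [Finset.sum_congr rfl fun o _ => h1 o, Finset.sum_coe_sort O (fun e => e),
      Finset.sum_sdiff (Finset.filter_subset _ _), hF.sum_eq]
  · intro u hu h hh
    rcases Finset.mem_union.1 hh with hh | hh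
    · obtain ⟨hhF, hhO⟩ := Finset.mem_sdiff.1 hh
      refine Finset.mem_union_left _ (Finset.mem_sdiff.2 ⟨hF.conj u hu h hhF, fun hc => hhO ?_⟩)
      obtain ⟨w, hw, e⟩ := (Finset.mem_filter.1 hc).2
      refine Finset.mem_filter.2 ⟨hhF, u⁻¹ * w, mul_mem (inv_mem hu) hw, ?_⟩
      calc ((u⁻¹ * w : Eˣ) : E) * f * (↑(u⁻¹ * w)⁻¹ : E)
          = (↑u⁻¹ : E) * ((w : E) * f * (↑w⁻¹ : E)) * (u : E) := by simp [mul_assoc]
        _ = h := by rw [e]; simp [mul_assoc]
    · obtain ⟨⟨o, e⟩, -, rfl⟩ := Finset.mem_image.1 hh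
      refine Finset.mem_union_right _ ?_
      have ho' : (u : E) * o * (↑u⁻¹ : E) ∈ O := by
        refine Finset.mem_filter.2 ⟨hF.conj u hu o (Finset.mem_filter.1 o.2).1, u * g o,
          mul_mem hu (hgQ o), ?_⟩
        rw [← hgf o]; simp [mul_assoc]
      set o' : O := ⟨_, ho'⟩ with ho'def
      set k := (g o')⁻¹ * (u * g o) with hk
      have hkQ : k ∈ Q := mul_mem (inv_mem (hgQ o')) (mul_mem hu (hgQ o))
      have hkf : (k : E) * f * (↑k⁻¹ : E) = f := by
        calc (k : E) * f * (↑k⁻¹ : E)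
            = (↑(g o')⁻¹ : E) * ((u : E) * ((g o : E) * f * (↑(g o)⁻¹ : E)) * (↑u⁻¹ : E)) * (g o' : E) := by
              simp [hk, mul_assoc]
          _ = (↑(g o')⁻¹ : E) * ((g o' : E) * f * (↑(g o')⁻¹ : E)) * (g o' : E) := by rw [hgf o, hgf o']
          _ = f := by simp [mul_assoc]
      refine Finset.mem_image.2 ⟨(o', ⟨_, hconj k hkQ hkf e e.2⟩), Finset.mem_univ _, ?_⟩
      simp [τ, hk, mul_assoc]
  · rw [Finset.card_union_of_disjoint hdisj, Finset.card_image_of_injective _ hinj, Finset.card_univ,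
      Fintype.card_prod, Fintype.card_coe, Fintype.card_coe]
    have h1 : (F \ O).card + O.card = F.card := Finset.card_sdiff_add_card_eq_card (Finset.filter_subset _ _)
    have h2 : 0 < O.card := Finset.card_pos.2 ⟨f, Finset.mem_filter.2 ⟨hf, 1, one_mem Q, by simp⟩⟩
    have h3 : O.card * 2 ≤ O.card * L.card := Nat.mul_le_mul_left _ hcard
    omega

end Refine

variable {W : Type*} [AddCommGroup W] [Finite W] {p : ℕ} [hp : Fact p.Prime]

theorem eq_one_of_fixed (hp2 : p ≠ 2) (hcop : (Nat.card W).Coprime p)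
    (Q R : Subgroup (AddMonoid.End W)ˣ) (hRQ : R ≤ Q) (hn : ∀ u ∈ Q, ∀ r ∈ R, u * r * u⁻¹ ∈ R)
    (hR : IsPGroup p R) {a : (AddMonoid.End W)ˣ} (ha : a ∈ R)
    (hfix : ∀ w : W, ∃ u ∈ Q, ((u * a * u⁻¹ : (AddMonoid.End W)ˣ) : AddMonoid.End W) w = w) : a = 1 := by
  classical
  rcases subsingleton_or_nontrivial W with hW | hW
  · exact Units.ext (AddMonoidHom.ext fun w => Subsingleton.elim _ _)
  haveI : Finite (AddMonoid.End W) :=
    Finite.of_injective (fun f : AddMonoid.End W => (f : W → W)) DFunLike.coe_injective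
  haveI : Nontrivial (AddMonoid.End W) := by
    obtain ⟨w, hw⟩ := exists_ne (0 : W)
    exact ⟨⟨1, 0, fun e => hw (DFunLike.congr_fun e w)⟩⟩
  -- a maximal system
  have h1 : Sys Q ({1} : Finset (AddMonoid.End W)) := by
    refine ⟨fun f hf => ?_, fun f hf g hg h => ?_, Finset.sum_singleton _ _, fun u _ f hf => ?_⟩
    · rw [Finset.mem_singleton.1 hf]; exact one_ne_zero
    · exact absurd ((Finset.mem_singleton.1 hf).trans (Finset.mem_singleton.1 hg).symm) h
    · rw [Finset.mem_singleton.1 hf]; simp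
  obtain ⟨F, hF, hFmax⟩ := Set.Finite.exists_maximalFor Finset.card
    {F : Finset (AddMonoid.End W) | Sys Q F} (Set.toFinite _) ⟨_, h1⟩
  replace hFmax : ∀ F', Sys Q F' → ¬ F.card < F'.card := fun F' hF' h =>
    absurd (hFmax (j := F') hF' h.le) h.not_ge
  -- nonzero vectors in every block
  have hw : ∀ f : F, ∃ w : W, w ≠ 0 ∧ (f : AddMonoid.End W) w = w := by
    intro f
    by_contra h
    push Not at h
    refine hF.ne_zero f f.2 (AddMonoidHom.ext fun w => by_contra fun hne => h _ hne ?_)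
    exact DFunLike.congr_fun (hF.idem f.2) w
  choose wf hwf0 hwf using hw
  have hzero : ∀ f g : F, f ≠ g → (f : AddMonoid.End W) (wf g) = 0 := by
    intro f g hfg
    rw [← hwf g]
    exact DFunLike.congr_fun (hF.orth _ f.2 _ g.2 fun e => hfg (Subtype.ext e)) (wf g)
  -- the action of `R` on the blocks
  let act : MulAction R F :=
    { smul := fun r f => ⟨((r : (AddMonoid.End W)ˣ) : AddMonoid.End W) * f *
          ((((r : (AddMonoid.End W)ˣ))⁻¹ : (AddMonoid.End W)ˣ) : AddMonoid.End W),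
        hF.conj _ (hRQ r.2) _ f.2⟩
      one_smul := fun f => Subtype.ext (by
        show ((1 : (AddMonoid.End W)ˣ) : AddMonoid.End W) * f *
          (((1 : (AddMonoid.End W)ˣ)⁻¹ : (AddMonoid.End W)ˣ) : AddMonoid.End W) = f
        simp)
      mul_smul := fun r s f => Subtype.ext (by
        show (((r * s : R) : (AddMonoid.End W)ˣ) : AddMonoid.End W) * f *
            ((((r * s : R) : (AddMonoid.End W)ˣ)⁻¹ : (AddMonoid.End W)ˣ) : AddMonoid.End W) =
          ((r : (AddMonoid.End W)ˣ) : AddMonoid.End W) *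
            (((s : (AddMonoid.End W)ˣ) : AddMonoid.End W) * f *
              ((((s : (AddMonoid.End W)ˣ))⁻¹ : (AddMonoid.End W)ˣ) : AddMonoid.End W)) *
            ((((r : (AddMonoid.End W)ˣ))⁻¹ : (AddMonoid.End W)ˣ) : AddMonoid.End W)
        simp [mul_assoc]) }
  letI := act
  obtain ⟨Δ, hΔ⟩ := exists_regular_set (Ω := F) hp2 hR
  set v : W := ∑ g ∈ Finset.univ.filter (· ∈ Δ), wf g with hv
  have hfv : ∀ f : F, (f : AddMonoid.End W) v = if f ∈ Δ then wf f else 0 := by
    intro f
    rw [hv, map_sum (f : AddMonoid.End W)]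
    split_ifs with hf
    · rw [Finset.sum_eq_single f (fun g _ hgf => hzero f g (Ne.symm hgf))
        (fun h => absurd (Finset.mem_filter.2 ⟨Finset.mem_univ _, hf⟩) h), hwf]
    · exact Finset.sum_eq_zero fun g hg => hzero f g fun e => hf (e ▸ (Finset.mem_filter.1 hg).2)
  have hR0 : ∀ r ∈ R, (r : AddMonoid.End W) v = v →
      ∀ f ∈ F, (r : AddMonoid.End W) * f = f * (r : AddMonoid.End W) := by
    intro r hr hrv f hf
    have hcar : Carries (⟨r, hr⟩ : R) Δ Δ := by
      intro g
      have e : (((⟨r, hr⟩ : R) • g : F) : AddMonoid.End W) v =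
          (r : AddMonoid.End W) ((g : AddMonoid.End W) v) := by
        show (r : AddMonoid.End W) ((g : AddMonoid.End W) (((r⁻¹ : (AddMonoid.End W)ˣ) : AddMonoid.End W) v)) = _
        congr 2
        conv_lhs => rw [← hrv]
        rw [← apply_mul, Units.inv_mul]
        rfl
      rw [hfv, hfv] at e
      by_cases hg : g ∈ Δ <;> by_cases hg' : (⟨r, hr⟩ : R) • g ∈ Δ <;> simp only [hg, hg', if_true, if_false] at e ⊢
      · refine (hwf0 g ?_).elim
        have := congrArg ((((r⁻¹ : (AddMonoid.End W)ˣ)) : AddMonoid.End W)) e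
        rw [map_zero, ← apply_mul, Units.inv_mul] at this
        exact this.symm
      · rw [map_zero] at e
        exact (hwf0 _ e).elim
    have h1 : (r : AddMonoid.End W) * f * ((r⁻¹ : (AddMonoid.End W)ˣ) : AddMonoid.End W) = f :=
      congrArg Subtype.val (hΔ ⟨r, hr⟩ hcar ⟨f, hf⟩)
    conv_rhs => rw [← h1]
    simp [mul_assoc]
  let R0 : Subgroup (AddMonoid.End W)ˣ :=
    { carrier := {r | r ∈ R ∧ ∀ f ∈ F, (r : AddMonoid.End W) * f = f * (r : AddMonoid.End W)}
      one_mem' := ⟨one_mem R, fun f _ => by simp⟩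
      mul_mem' := fun {r s} hr hs => ⟨mul_mem hr.1 hs.1, fun f hf => by
        rw [Units.val_mul, mul_assoc, hs.2 f hf, ← mul_assoc, hr.2 f hf, mul_assoc]⟩
      inv_mem' := fun {r} hr => ⟨inv_mem hr.1, fun f hf =>
        (Commute.units_inv_left (show Commute (r : AddMonoid.End W) f from hr.2 f hf)).eq⟩ }
  have hR0Q : ∀ u ∈ Q, ∀ r ∈ R0, u * r * u⁻¹ ∈ R0 := by
    intro u hu r hr
    refine ⟨hn u hu r hr.1, fun f hf => ?_⟩
    have h1 := hr.2 _ (by simpa using hF.conj u⁻¹ (inv_mem hu) f hf :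
      ((u⁻¹ : (AddMonoid.End W)ˣ) : AddMonoid.End W) * f * (u : AddMonoid.End W) ∈ F)
    calc ((u * r * u⁻¹ : (AddMonoid.End W)ˣ) : AddMonoid.End W) * f
        = (u : AddMonoid.End W) * ((r : AddMonoid.End W) *
            (((u⁻¹ : (AddMonoid.End W)ˣ) : AddMonoid.End W) * f * (u : AddMonoid.End W))) *
            ((u⁻¹ : (AddMonoid.End W)ˣ) : AddMonoid.End W) := by simp [mul_assoc]
      _ = f * ((u * r * u⁻¹ : (AddMonoid.End W)ˣ) : AddMonoid.End W) := by rw [h1]; simp [mul_assoc]
  obtain ⟨u, hu, huv⟩ := hfix v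
  have haR0 : a ∈ R0 := by
    have h1 := hR0Q u⁻¹ (inv_mem hu) _
      (show u * a * u⁻¹ ∈ R0 from ⟨hn u hu a ha, hR0 _ (hn u hu a ha) huv⟩)
    simpa [mul_assoc] using h1
  -- regular vectors inside the blocks
  have hreg : ∀ f : F, ∃ w : W, (f : AddMonoid.End W) w = w ∧ ∀ r ∈ R0, (r : AddMonoid.End W) w = w →
      (r : AddMonoid.End W) * f = f := by
    intro f
    let U : AddSubgroup W :=
      { carrier := {w | (f : AddMonoid.End W) w = w}
        zero_mem' := map_zero _
        add_mem' := fun {x y} hx hy => by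
          show (f : AddMonoid.End W) (x + y) = x + y
          rw [map_add, hx, hy]
        neg_mem' := fun {x} hx => by
          show (f : AddMonoid.End W) (-x) = -x
          rw [map_neg, hx] }
    haveI : Nontrivial U := ⟨⟨⟨wf f, hwf f⟩, 0, fun e => hwf0 f (congrArg Subtype.val e)⟩⟩
    let Qf : Subgroup (AddMonoid.End W)ˣ :=
      { carrier := {q | q ∈ Q ∧ (q : AddMonoid.End W) * f = f * (q : AddMonoid.End W)}
        one_mem' := ⟨one_mem Q, by simp⟩
        mul_mem' := fun {r s} hr hs => ⟨mul_mem hr.1 hs.1, by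
          rw [Units.val_mul, mul_assoc, hs.2, ← mul_assoc, hr.2, mul_assoc]⟩
        inv_mem' := fun {r} hr => ⟨inv_mem hr.1,
          (Commute.units_inv_left (show Commute (r : AddMonoid.End W) f from hr.2)).eq⟩ }
    let res : Qf →* AddMonoid.End U :=
      { toFun := fun q =>
          { toFun := fun w => ⟨((q : (AddMonoid.End W)ˣ) : AddMonoid.End W) w, by
              show (f : AddMonoid.End W) (((q : (AddMonoid.End W)ˣ) : AddMonoid.End W) w) = _
              rw [← apply_mul, ← q.2.2, apply_mul, w.2]⟩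
            map_zero' := Subtype.ext (map_zero _)
            map_add' := fun x y => Subtype.ext (map_add _ (x : W) y) }
        map_one' := AddMonoidHom.ext fun w => Subtype.ext rfl
        map_mul' := fun q q' => AddMonoidHom.ext fun w => Subtype.ext rfl }
    let ρ := res.toHomUnits
    have hR0f : R0 ≤ Qf := fun r hr => ⟨hRQ hr.1, hr.2 f f.2⟩
    have hcopU : (Nat.card U).Coprime p :=
      Nat.Coprime.coprime_dvd_left (AddSubgroup.card_addSubgroup_dvd_card U) hcop
    have hpU : IsPGroup p ((R0.subgroupOf Qf).map ρ) :=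
      (((hR.to_le (show R0 ≤ R from fun r hr => hr.1)).of_equiv (Subgroup.subgroupOfEquivOfLe hR0f).symm).map ρ)
    obtain ⟨w, hw⟩ := exists_regular_vector hp2 hcopU ρ.range ((R0.subgroupOf Qf).map ρ)
      (by
        rintro _ ⟨q, rfl⟩ _ ⟨r, hr, rfl⟩
        refine ⟨q * r * q⁻¹, ?_, by simp⟩
        exact hR0Q _ q.2.1 _ hr)
      hpU (fun L' hL' => by
        by_contra hcard
        push Not at hcard
        let lift : AddMonoid.End U → AddMonoid.End W := fun e =>
          { toFun := fun w => (e ⟨(f : AddMonoid.End W) w, DFunLike.congr_fun (hF.idem f.2) w⟩ : W)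
            map_zero' := by
              rw [show (⟨(f : AddMonoid.End W) 0, DFunLike.congr_fun (hF.idem f.2) 0⟩ : U) = 0 from
                Subtype.ext (map_zero _), map_zero, AddSubgroup.coe_zero]
            map_add' := fun x y => by
              rw [show (⟨(f : AddMonoid.End W) (x + y), DFunLike.congr_fun (hF.idem f.2) (x + y)⟩ : U) =
                ⟨(f : AddMonoid.End W) x, DFunLike.congr_fun (hF.idem f.2) x⟩ +
                  ⟨(f : AddMonoid.End W) y, DFunLike.congr_fun (hF.idem f.2) y⟩ from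
                Subtype.ext (map_add _ x y), map_add, AddSubgroup.coe_add] }
        have hlift : ∀ e (w : U), lift e (w : W) = (e w : W) := fun e w =>
          congrArg (fun t : U => (e t : W)) (Subtype.ext w.2)
        have hliftinj : Function.Injective lift := fun e e' h => AddMonoidHom.ext fun w => Subtype.ext
          ((hlift e w).symm.trans ((DFunLike.congr_fun h (w : W)).trans (hlift e' w)))
        refine absurd ?_ (fun h : ∃ F', Sys Q F' ∧ F.card < F'.card => let ⟨F', h1, h2⟩ := h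
          hFmax F' h1 h2)
        refine refine_sys Q hF f.2 (L'.image lift) ?_ ?_ ?_ ?_ ?_ ?_ ?_
        · intro e he h0
          obtain ⟨e', he', rfl⟩ := Finset.mem_image.1 he
          refine hL'.ne_zero e' he' (AddMonoidHom.ext fun w => Subtype.ext ?_)
          exact (hlift e' w).symm.trans (DFunLike.congr_fun h0 (w : W))
        · intro e he e' he' hne
          obtain ⟨s, hs, rfl⟩ := Finset.mem_image.1 he
          obtain ⟨t, ht, rfl⟩ := Finset.mem_image.1 he'
          refine AddMonoidHom.ext fun w => ?_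
          show lift s ((lift t) w) = 0
          have h3 := hlift s (t ⟨(f : AddMonoid.End W) w, DFunLike.congr_fun (hF.idem f.2) w⟩)
          refine h3.trans ?_
          rw [← apply_mul, hL'.orth s hs t ht fun e => hne (by rw [e])]
          rfl
        · rw [Finset.sum_image fun x _ y _ h => hliftinj h]
          refine AddMonoidHom.ext fun w => (sum_apply L' lift w).trans ?_
          have := congrArg Subtype.val (DFunLike.congr_fun hL'.sum_eq
            (⟨(f : AddMonoid.End W) w, DFunLike.congr_fun (hF.idem f.2) w⟩ : U))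
          rw [sum_apply, AddSubgroup.val_finset_sum] at this
          exact this
        · intro e he
          obtain ⟨s, -, rfl⟩ := Finset.mem_image.1 he
          exact AddMonoidHom.ext fun w => (s _).2
        · intro e he
          obtain ⟨s, -, rfl⟩ := Finset.mem_image.1 he
          refine AddMonoidHom.ext fun w => ?_
          show (s ⟨(f : AddMonoid.End W) ((f : AddMonoid.End W) w), _⟩ : W) = _
          exact congrArg (fun t : U => (s t : W)) (Subtype.ext (DFunLike.congr_fun (hF.idem f.2) w))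
        · intro q hq hqf e he
          obtain ⟨s, hs, rfl⟩ := Finset.mem_image.1 he
          have hqQf : q ∈ Qf := by
            refine ⟨hq, ?_⟩
            conv_rhs => rw [← hqf]
            simp [mul_assoc]
          refine Finset.mem_image.2 ⟨_, hL'.conj _ ⟨⟨q, hqQf⟩, rfl⟩ s hs, ?_⟩
          refine AddMonoidHom.ext fun w => ?_
          show (q : AddMonoid.End W) _ = (q : AddMonoid.End W) _
          congr 1
          refine congrArg (fun t : U => (s t : W)) (Subtype.ext ?_)
          show ((q⁻¹ : (AddMonoid.End W)ˣ) : AddMonoid.End W) ((f : AddMonoid.End W) w) =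
            (f : AddMonoid.End W) (((q⁻¹ : (AddMonoid.End W)ˣ) : AddMonoid.End W) w)
          rw [← apply_mul, ← apply_mul,
            (Commute.units_inv_left (show Commute (q : AddMonoid.End W) f from hqQf.2)).eq]
        · rw [Finset.card_image_of_injective _ hliftinj]; omega)
    refine ⟨w, w.2, fun r hr hrw => ?_⟩
    have h1 := hw (ρ ⟨r, hR0f hr⟩) ⟨⟨r, hR0f hr⟩, hr, rfl⟩ (Subtype.ext hrw)
    refine AddMonoidHom.ext fun x => ?_
    have h2 := congrArg (fun e : (AddMonoid.End U)ˣ =>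
      ((e : AddMonoid.End U) ⟨(f : AddMonoid.End W) x, DFunLike.congr_fun (hF.idem f.2) x⟩ : W)) h1
    exact h2
  choose wr hwr1 hwr2 using hreg
  set v2 : W := ∑ g : F, wr g with hv2
  obtain ⟨u2, hu2, huv2⟩ := hfix v2
  have hb := hR0Q u2 hu2 a haR0
  set b := u2 * a * u2⁻¹ with hbdef
  have hblock : ∀ f : F, (b : AddMonoid.End W) * f = f := by
    intro f
    refine hwr2 f b hb ?_
    have hfv2 : (f : AddMonoid.End W) v2 = wr f := by
      rw [hv2, map_sum (f : AddMonoid.End W), Finset.sum_eq_single f]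
      · exact hwr1 f
      · intro g _ hgf
        rw [← hwr1 g]
        exact DFunLike.congr_fun (hF.orth _ f.2 _ g.2 fun e => hgf (Subtype.ext e.symm)) (wr g)
      · intro h; exact absurd (Finset.mem_univ f) h
    rw [← hfv2, ← apply_mul, hb.2 f f.2, apply_mul, huv2]
  have hb1 : b = 1 := by
    refine Units.ext ?_
    rw [Units.val_one, ← mul_one (b : AddMonoid.End W), ← hF.sum_eq, Finset.mul_sum]
    exact Finset.sum_congr rfl fun f hf => hblock ⟨f, hf⟩
  rwa [hbdef, conj_eq_one_iff] at hb1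

end Cfsg.Agent.FGS4.ClassSubnormal
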