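import Mathlib.Algebra.BigOperators.Ring.Finset
import Mathlib.Algebra.Ring.Subring.Basic
import Mathlib.Algebra.Group.Subgroup.Basic
import Mathlib.GroupTheory.OrderOfElement
import Mathlib.Tactic.LinearCombination
import Mathlib.Tactic.Ring

/-! # Invariant systems of orthogonal idempotents and averages of units of prime order -/

set_option linter.style.haveILetI false

namespace Cfsg.Agent.FGS4.ClassSubnormal

variable {E : Type*} [Ring E]

/-- An invariant complete system of nonzero orthogonal idempotents. -/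
structure Sys (Q : Subgroup Eˣ) (F : Finset E) : Prop where
  ne_zero : ∀ f ∈ F, f ≠ 0
  orth : ∀ f ∈ F, ∀ f' ∈ F, f ≠ f' → f * f' = 0
  sum_eq : ∑ f ∈ F, f = 1
  conj : ∀ u ∈ Q, ∀ f ∈ F, (u : E) * f * (↑u⁻¹ : E) ∈ F

theorem Sys.idem {Q : Subgroup Eˣ} {F : Finset E} (h : Sys Q F) {f : E} (hf : f ∈ F) : f * f = f := by
  classical
  conv_rhs => rw [← mul_one f, ← h.sum_eq, Finset.mul_sum]
  rw [Finset.sum_eq_single f (fun g hg hgf => h.orth f hf g hg (Ne.symm hgf))
    (fun h' => absurd hf h')]

/-- No nontrivial system: invariant commuting idempotents are `0` or `1`. -/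
theorem trivial_of_noSplit [Nontrivial E] (Q : Subgroup Eˣ)
    (hns : ∀ F : Finset E, Sys Q F → F.card ≤ 1) (Ψ : Finset E)
    (hcomm : ∀ a ∈ Ψ, ∀ b ∈ Ψ, a * b = b * a) (hidem : ∀ a ∈ Ψ, a * a = a)
    (hconj : ∀ u ∈ Q, ∀ a ∈ Ψ, (u : E) * a * (↑u⁻¹ : E) ∈ Ψ) :
    ∀ a ∈ Ψ, a = 0 ∨ a = 1 := by
  classical
  set C := Subring.closure (Ψ : Set E)
  have hC : IsMulCommutative C := Subring.isMulCommutative_closure hcomm
  letI : CommRing C := { (inferInstance : Ring C) with mul_comm := fun a b => hC.is_comm.comm a b }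
  let ψ : Ψ → C := fun a => ⟨a, Subring.subset_closure a.2⟩
  have hψ : ∀ a, ψ a * ψ a = ψ a := fun a => Subtype.ext (hidem a a.2)
  let at' : Finset Ψ → C := fun Y => (∏ a ∈ Y, ψ a) * ∏ a ∈ Yᶜ, (1 - ψ a)
  have hin : ∀ (Y : Finset Ψ) a, a ∈ Y → at' Y * ψ a = at' Y := by
    intro Y a ha
    simp only [at']
    rw [← Finset.mul_prod_erase Y ψ ha]
    linear_combination ((∏ x ∈ Y.erase a, ψ x) * ∏ x ∈ Yᶜ, (1 - ψ x)) * hψ a
  have hout : ∀ (Y : Finset Ψ) a, a ∉ Y → at' Y * ψ a = 0 := by
    intro Y a ha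
    simp only [at']
    rw [← Finset.mul_prod_erase Yᶜ (fun x => 1 - ψ x) (Finset.mem_compl.2 ha)]
    linear_combination (-((∏ x ∈ Y, ψ x) * ∏ x ∈ Yᶜ.erase a, (1 - ψ x))) * hψ a
  have horth : ∀ Y Y', Y ≠ Y' → at' Y * at' Y' = 0 := by
    intro Y Y' hne
    obtain ⟨a, ha⟩ : ∃ a, ¬ (a ∈ Y ↔ a ∈ Y') := by
      by_contra h
      push Not at h
      exact hne (Finset.ext h)
    by_cases h1 : a ∈ Y
    · have h2 : a ∉ Y' := fun h => ha ⟨fun _ => h, fun _ => h1⟩
      calc at' Y * at' Y' = at' Y * ψ a * at' Y' := by rw [hin Y a h1]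
        _ = at' Y * (at' Y' * ψ a) := by ring
        _ = 0 := by rw [hout Y' a h2, mul_zero]
    · have h2 : a ∈ Y' := by by_contra h; exact ha ⟨fun h' => absurd h' h1, fun h' => absurd h' h⟩
      calc at' Y * at' Y' = at' Y * (at' Y' * ψ a) := by rw [hin Y' a h2]
        _ = at' Y * ψ a * at' Y' := by ring
        _ = 0 := by rw [hout Y a h1, zero_mul]
  have hsum : ∑ Y : Finset Ψ, at' Y = 1 := by
    have h := Finset.prod_add ψ (fun a => 1 - ψ a) Finset.univ
    simp only [add_sub_cancel, Finset.prod_const_one, Finset.powerset_univ] at h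
    rw [h]
    exact Finset.sum_congr rfl fun Y _ => by rw [← Finset.compl_eq_univ_sdiff]
  let A : Finset Ψ → E := fun Y => (at' Y : E)
  set F : Finset E := (Finset.univ.filter fun Y => A Y ≠ 0).image A with hF
  have hinj : Set.InjOn A ↑(Finset.univ.filter fun Y => A Y ≠ 0) := by
    intro Y hY Y' _ e
    by_contra hne
    have h1 := horth Y Y' hne
    have h2 : at' Y = at' Y' := Subtype.ext e
    have h3 : at' Y * at' Y = at' Y := by
      simp only [at']
      rw [mul_mul_mul_comm, ← Finset.prod_mul_distrib, ← Finset.prod_mul_distrib]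
      simp only [hψ, show ∀ a, (1 - ψ a) * (1 - ψ a) = 1 - ψ a from fun a => by
        linear_combination hψ a]
    rw [← h2, h3] at h1
    exact (Finset.mem_filter.1 hY).2 (congrArg Subtype.val h1)
  have hsys : Sys Q F := by
    refine ⟨?_, ?_, ?_, ?_⟩
    · intro f hf
      obtain ⟨Y, hY, rfl⟩ := Finset.mem_image.1 hf
      exact (Finset.mem_filter.1 hY).2
    · intro f hf f' hf' hne
      obtain ⟨Y, -, rfl⟩ := Finset.mem_image.1 hf
      obtain ⟨Y', -, rfl⟩ := Finset.mem_image.1 hf'
      exact congrArg Subtype.val (horth Y Y' fun e => hne (by rw [e]))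
    · rw [hF, Finset.sum_image hinj, Finset.sum_filter_ne_zero]
      have := congrArg (Subring.subtype C) hsum
      rw [map_sum, map_one] at this
      exact this
    · intro u hu f hf
      obtain ⟨Y, hY, rfl⟩ := Finset.mem_image.1 hf
      let φ : E →+* E :=
        { toFun := fun x => (u : E) * x * (↑u⁻¹ : E)
          map_one' := by simp
          map_mul' := fun x y => by simp [mul_assoc]
          map_zero' := by simp
          map_add' := fun x y => by simp [mul_add, add_mul] }
      let σ : Ψ ≃ Ψ :=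
        { toFun := fun a => ⟨(u : E) * a * (↑u⁻¹ : E), hconj u hu a a.2⟩
          invFun := fun a => ⟨(↑u⁻¹ : E) * a * (u : E), by
            simpa using hconj u⁻¹ (inv_mem hu) a a.2⟩
          left_inv := fun a => Subtype.ext (by simp [mul_assoc])
          right_inv := fun a => Subtype.ext (by simp [mul_assoc]) }
      have hcompl : (Y.map σ.toEmbedding)ᶜ = Yᶜ.map σ.toEmbedding := by
        ext a; simp [Finset.mem_compl]
      have hmap : ∀ x ∈ C, φ x ∈ C := fun x hx => by
        have h1 : Subring.map φ C ≤ C := by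
          rw [RingHom.map_closure, Subring.closure_le]
          rintro _ ⟨y, hy, rfl⟩
          exact Subring.subset_closure (hconj u hu y hy)
        exact h1 ⟨x, hx, rfl⟩
      let φC : C →+* C := (φ.comp (Subring.subtype C)).codRestrict C (fun x => hmap x x.2)
      have hφψ : ∀ a, φC (ψ a) = ψ (σ a) := fun a => Subtype.ext rfl
      have himg : φ (A Y) = A (Y.map σ.toEmbedding) := by
        have h1 : φC (at' Y) = at' (Y.map σ.toEmbedding) := by
          simp only [at']
          rw [hcompl, Finset.prod_map, Finset.prod_map, map_mul, map_prod, map_prod]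
          simp only [map_sub, map_one, hφψ]
          rfl
        exact congrArg Subtype.val h1
      refine Finset.mem_image.2 ⟨_, Finset.mem_filter.2 ⟨Finset.mem_univ _, fun h0 => ?_⟩, himg.symm⟩
      rw [h0] at himg
      have h1 : (u : E) * A Y * (↑u⁻¹ : E) = 0 := himg
      exact (Finset.mem_filter.1 hY).2 (by simpa using h1)
  have hcard := hns F hsys
  obtain ⟨f, hf⟩ := Finset.card_eq_one.1 (le_antisymm hcard (Finset.card_pos.2 (by
    by_contra h
    rw [Finset.not_nonempty_iff_eq_empty] at h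
    have := hsys.sum_eq
    rw [h, Finset.sum_empty] at this
    exact zero_ne_one this)))
  have h1 : f = 1 := by rw [← hsys.sum_eq, hf, Finset.sum_singleton]
  obtain ⟨Y, -, hY⟩ := Finset.mem_image.1 (show f ∈ F by rw [hf]; exact Finset.mem_singleton_self f)
  have hY1 : at' Y = 1 := Subtype.ext (by rw [show ((at' Y : C) : E) = f from hY, h1]; rfl)
  intro a ha
  by_cases haY : (⟨a, ha⟩ : Ψ) ∈ Y
  · have := hin Y _ haY
    rw [hY1, one_mul] at this
    exact Or.inr (congrArg Subtype.val this)
  · have := hout Y _ haY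
    rw [hY1, one_mul] at this
    exact Or.inl (congrArg Subtype.val this)

/-! ### Averages -/

variable {p c : ℕ}

/-- The average over the powers of a unit, `c` inverse to `p`. -/
def avg (p c : ℕ) (u : Eˣ) : E := (c : E) * ∑ j ∈ Finset.range p, (u : E) ^ j

theorem unit_mul_avg {u : Eˣ} (hu : u ^ p = 1) : (u : E) * avg p c u = avg p c u := by
  rw [avg, ← mul_assoc, ← (Nat.cast_commute c (u : E)).eq, mul_assoc]
  congr 1
  rw [Finset.mul_sum]
  have h1 := Finset.sum_range_succ' (fun j => (u : E) ^ j) p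
  have h2 := Finset.sum_range_succ (fun j => (u : E) ^ j) p
  rw [pow_zero] at h1
  rw [← Units.val_pow_eq_pow_val, hu, Units.val_one] at h2
  rw [h2] at h1
  refine Eq.trans (Finset.sum_congr rfl fun j _ => (pow_succ' (u : E) j).symm) ?_
  exact (add_right_cancel h1).symm

theorem pow_mul_avg {u : Eˣ} (hu : u ^ p = 1) (j : ℕ) : (u : E) ^ j * avg p c u = avg p c u := by
  induction j with
  | zero => simp
  | succ j ih => rw [pow_succ, mul_assoc, unit_mul_avg hu, ih]

theorem avg_mul_eq {u : Eˣ} {x : E} (hc : (c : E) * (p : E) = 1) (h : (u : E) * x = x) :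
    avg p c u * x = x := by
  have hj : ∀ j : ℕ, (u : E) ^ j * x = x := fun j => by
    induction j with
    | zero => simp
    | succ j ih => rw [pow_succ, mul_assoc, h, ih]
  rw [avg, mul_assoc, Finset.sum_mul, Finset.sum_congr rfl fun j _ => hj j, Finset.sum_const,
    Finset.card_range, nsmul_eq_mul, ← mul_assoc, hc, one_mul]

theorem avg_idem {u : Eˣ} (hu : u ^ p = 1) (hc : (c : E) * (p : E) = 1) :
    avg p c u * avg p c u = avg p c u := avg_mul_eq hc (unit_mul_avg hu)

theorem avg_commute {u v : Eˣ} (h : Commute u v) : avg p c u * (v : E) = (v : E) * avg p c u := by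
  have h1 : Commute (u : E) (v : E) := congrArg Units.val h.eq
  exact ((Nat.cast_commute c (v : E)).mul_left (Commute.sum_left _ _ _ fun j _ => h1.pow_left j)).eq

theorem avg_commute_avg {u v : Eˣ} (h : Commute u v) :
    avg p c u * avg p c v = avg p c v * avg p c u := by
  have h1 : Commute (u : E) (v : E) := congrArg Units.val h.eq
  have h2 : Commute (∑ j ∈ Finset.range p, (u : E) ^ j) (∑ j ∈ Finset.range p, (v : E) ^ j) :=
    Commute.sum_left _ _ _ fun i _ => Commute.sum_right _ _ _ fun j _ => (h1.pow_left i).pow_right j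
  exact (((Nat.cast_commute c (c : E)).mul_right (Nat.cast_commute c _)).mul_left
    (((Nat.cast_commute c _).symm).mul_right h2)).eq

theorem avg_conj (w u : Eˣ) : (w : E) * avg p c u * (↑w⁻¹ : E) = avg p c (w * u * w⁻¹) := by
  rw [avg, avg, ← mul_assoc (w : E), ← (Nat.cast_commute c (w : E)).eq, mul_assoc (c : E),
    mul_assoc (c : E), Finset.mul_sum, Finset.sum_mul]
  congr 1
  refine Finset.sum_congr rfl fun j _ => ?_
  rw [← Units.val_pow_eq_pow_val, ← Units.val_pow_eq_pow_val, conj_pow, Units.val_mul, Units.val_mul]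

theorem eq_one_of_avg_eq_one {u : Eˣ} (hu : u ^ p = 1) (h : avg p c u = 1) : u = 1 := by
  have h1 := unit_mul_avg (c := c) hu
  rw [h, mul_one] at h1
  exact Units.ext h1

/-- When the powers of `z` have zero average, the averages along `y z^i` add up to `1`. -/
theorem sum_avg_translate {z x : Eˣ} (hp : 0 < p) (hc : (c : E) * (p : E) = 1) (hzx : Commute z x)
    (hz : ∀ j : ℕ, 1 ≤ j → j < p → avg p c (z ^ j) = 0) :
    ∑ i ∈ Finset.range p, avg p c (x * z ^ i) = 1 := by
  simp only [avg, ← Finset.mul_sum]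
  rw [Finset.sum_comm, Finset.mul_sum, Finset.sum_eq_single 0]
  · simp only [pow_zero, Finset.sum_const, Finset.card_range, nsmul_eq_mul, mul_one]
    exact hc
  · intro j hj hj0
    have h1 := hz j (by omega) (Finset.mem_range.1 hj)
    rw [avg] at h1
    have h2 : ∑ i ∈ Finset.range p, ((x * z ^ i : Eˣ) : E) ^ j =
        (x : E) ^ j * ∑ i ∈ Finset.range p, ((z ^ j : Eˣ) : E) ^ i := by
      rw [Finset.mul_sum]
      refine Finset.sum_congr rfl fun i _ => ?_
      rw [← Units.val_pow_eq_pow_val, (hzx.symm.pow_right i).mul_pow, ← pow_mul, mul_comm i j, pow_mul,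
        Units.val_mul, Units.val_pow_eq_pow_val, Units.val_pow_eq_pow_val]
    rw [h2, ← mul_assoc, (Nat.cast_commute c ((x : E) ^ j)).eq, mul_assoc, h1, mul_zero]
  · intro h; exact absurd (Finset.mem_range.2 hp) h

end Cfsg.Agent.FGS4.ClassSubnormal
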