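import Cfsg.Agent.FGS4.ClassSubnormal.Blocks
import Cfsg.Agent.Core.Cores
import Mathlib.GroupTheory.Solvable

/-! # Subnormality inside the subgroups generated with conjugates -/

set_option linter.style.haveILetI false

namespace Cfsg.Agent.FGS4.ClassSubnormal

universe u

open Subgroup
open scoped Pointwise

/-- Every class has a member `g` with `⟨a, gag⁻¹⟩` a `p`-group. -/
def Paired (p : ℕ) {G : Type*} [Group G] (a : G) : Prop :=
  ∀ c : G, ∃ g : G, IsConj c g ∧ IsPGroup p (closure ({a, g * a * g⁻¹} : Set G))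

theorem Paired.map {p : ℕ} {G H : Type*} [Group G] [Group H] {a : G} (h : Paired p a) (f : G →* H)
    (hf : Function.Surjective f) : Paired p (f a) := by
  intro c
  obtain ⟨c, rfl⟩ := hf c
  obtain ⟨g, hcg, hg⟩ := h c
  refine ⟨f g, f.map_isConj hcg, ?_⟩
  have := hg.map f
  rwa [MonoidHom.map_closure, Set.image_pair, map_mul, map_mul, map_inv] at this

theorem Paired.isPGroup {p : ℕ} {G : Type*} [Group G] {a : G} (h : Paired p a) :
    IsPGroup p (zpowers a) := by
  obtain ⟨g, -, hg⟩ := h 1
  exact hg.to_le (zpowers_le.2 (subset_closure (Set.mem_insert _ _)))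

/-- A nontrivial solvable group has a nontrivial abelian normal subgroup. -/
theorem exists_abelian_normal {G : Type*} [Group G] [Nontrivial G] (hsol : Group.IsSolvable G) :
    ∃ V : Subgroup G, V.Normal ∧ IsMulCommutative V ∧ V ≠ ⊥ := by
  classical
  obtain ⟨n, hn⟩ := (Group.isSolvable_def _).1 hsol
  have hfind := Nat.find_spec (⟨n, hn⟩ : ∃ n, derivedSeries G n = ⊥)
  cases hk : Nat.find (⟨n, hn⟩ : ∃ n, derivedSeries G n = ⊥) with
  | zero => rw [hk, derivedSeries_zero] at hfind; exact absurd hfind top_ne_bot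
  | succ k =>
    rw [hk, derivedSeries_succ] at hfind
    refine ⟨derivedSeries G k, inferInstance, ⟨⟨fun a b => Subtype.ext ?_⟩⟩, fun h => ?_⟩
    · have h1 := commutator_mem_commutator a.2 b.2
      rw [hfind, mem_bot] at h1
      exact commutatorElement_eq_one_iff_commute.1 h1
    · have := Nat.find_min' (⟨n, hn⟩ : ∃ n, derivedSeries G n = ⊥) h
      omega

theorem mem_pCore_of_paired {p : ℕ} [hp : Fact p.Prime] (hp2 : p ≠ 2) :
    ∀ (n : ℕ) (G : Type u) [Group G] [Finite G], Nat.card G = n → Group.IsSolvable G →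
      ∀ a : G, Paired p a → a ∈ Cfsg.pCore p G := by
  intro n
  induction n using Nat.strong_induction_on with
  | _ n ih =>
    intro G _ _ hn hsol a hpair
    subst hn
    by_cases ha1 : a = 1
    · rw [ha1]; exact one_mem _
    haveI : Nontrivial G := ⟨⟨a, 1, ha1⟩⟩
    haveI := hsol
    have hquot : ∀ (N : Subgroup G) [N.Normal], N ≠ ⊥ →
        (a : G ⧸ N) ∈ Cfsg.pCore p (G ⧸ N) := by
      intro N _ hN
      refine ih (Nat.card (G ⧸ N)) ?_ (G ⧸ N) rfl
        (Group.isSolvable_of_surjective (QuotientGroup.mk'_surjective N)) _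
        (hpair.map (QuotientGroup.mk' N) (QuotientGroup.mk'_surjective N))
      rw [← N.index_eq_card]
      conv_rhs => rw [← N.index_mul_card]
      exact lt_mul_right (Nat.pos_of_ne_zero N.index_ne_zero_of_finite) (N.one_lt_card_iff_ne_bot.2 hN)
    by_cases hcore : Cfsg.pCore p G = ⊥
    swap
    · haveI := Cfsg.pCore_normal p G
      have h1 := hquot _ hcore
      rw [← Core.comap_pCore_quotient (Cfsg.pCore p G) (Core.isPGroup_pCore p G)]
      exact h1
    exfalso
    obtain ⟨V, hVn, hVc, hVne⟩ := exists_abelian_normal hsol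
    haveI := hVn
    haveI := hVc
    -- `V` has order prime to `p`
    obtain ⟨S0⟩ := (inferInstance : Nonempty (Sylow p V))
    have hS0n : (S0 : Subgroup V).Normal := ⟨fun x hx g => by
      rw [hVc.is_comm.comm g x, mul_inv_cancel_right]; exact hx⟩
    haveI := Sylow.characteristic_of_normal S0 hS0n
    have hS0bot : (S0 : Subgroup V) = ⊥ := by
      have h1 : (S0 : Subgroup V).map V.subtype ≤ Cfsg.pCore p G :=
        Core.le_pCore (Core.normal_map_subtype_of_characteristic _) (S0.isPGroup'.map _)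
      rw [hcore, le_bot_iff, map_eq_bot_iff_of_injective _ V.subtype_injective] at h1
      exact h1
    have hcop : (Nat.card V).Coprime p := by
      refine (hp.out.coprime_iff_not_dvd.2 ?_).symm
      have := S0.not_dvd_index
      rwa [hS0bot, index_bot] at this
    -- the preimage of the core of the quotient and its Sylow subgroup
    set X := (Cfsg.pCore p (G ⧸ V)).comap (QuotientGroup.mk' V) with hX
    haveI : (Cfsg.pCore p (G ⧸ V)).Normal := Cfsg.pCore_normal p _
    haveI hXn : X.Normal := inferInstance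
    have hVX : V ≤ X := fun v hv => by
      rw [hX, mem_comap, QuotientGroup.mk'_apply, (QuotientGroup.eq_one_iff v).2 hv]; exact one_mem _
    have haX : a ∈ X := hquot V hVne
    obtain ⟨S, hS⟩ := ((hpair.isPGroup.of_equiv
      (subgroupOfEquivOfLe (zpowers_le.2 haX : zpowers a ≤ X)).symm) :
        IsPGroup p ((zpowers a).subgroupOf X)).exists_le_sylow
    set R := (S : Subgroup X).map X.subtype with hR
    have haR : a ∈ R := ⟨⟨a, haX⟩, hS (mem_zpowers a), rfl⟩
    have hRX : R ≤ X := map_subtype_le _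
    have hRp : IsPGroup p R := S.isPGroup'.map _
    have hVR : V ⊔ R = X := by
      refine le_antisymm (sup_le hVX hRX) (relIndex_eq_one.1 ?_)
      have h1 : (V ⊔ R).relIndex X ∣ V.relIndex X := relIndex_dvd_of_le_left X le_sup_left
      have h2 : (V ⊔ R).relIndex X ∣ R.relIndex X := relIndex_dvd_of_le_left X le_sup_right
      have h3 : R.relIndex X = (S : Subgroup X).index := by
        rw [hR, relIndex, subgroupOf, comap_map_eq_self_of_injective X.subtype_injective]
      obtain ⟨j, hj⟩ := IsPGroup.iff_card.1 (Core.isPGroup_pCore p (G ⧸ V))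
      have h4 : V.relIndex X = p ^ j := by
        have h5 := relIndex_mul_index hVX
        have h6 : X.index = (Cfsg.pCore p (G ⧸ V)).index :=
          index_comap_of_surjective _ (QuotientGroup.mk'_surjective V)
        rw [h6, V.index_eq_card, ← (Cfsg.pCore p (G ⧸ V)).card_mul_index, hj] at h5
        exact Nat.eq_of_mul_eq_mul_right (Nat.pos_of_ne_zero index_ne_zero_of_finite) h5
      rw [h4] at h1
      rw [h3] at h2
      exact Nat.eq_one_of_dvd_coprimes
        ((hp.out.coprime_iff_not_dvd.2 S.not_dvd_index).pow_left j) h1 h2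
    set K := normalizer (R : Set G) with hK
    have hKV : ∀ g : G, ∃ v ∈ V, ∃ k ∈ K, g = v * k := by
      intro g
      have h1 : K ⊔ X = ⊤ := Sylow.normalizer_sup_eq_top S
      have h2 : K ⊔ V = ⊤ := by
        refine top_le_iff.1 (h1.ge.trans (sup_le le_sup_left ?_))
        rw [← hVR]
        exact sup_le le_sup_right ((le_normalizer).trans le_sup_left)
      obtain ⟨v, hv, k, hk, e⟩ := mem_sup_of_normal_left.1
        (show g ∈ V ⊔ K by rw [sup_comm, h2]; exact mem_top g)
      exact ⟨v, hv, k, hk, e.symm⟩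
    -- every vector is fixed by a conjugate of `a`
    have hfix : ∀ v ∈ V, ∃ k ∈ K, Commute (k * a * k⁻¹) v := by
      intro v hv
      obtain ⟨g, hcg, hg⟩ := hpair v
      obtain ⟨h, rfl⟩ := isConj_iff.1 hcg
      obtain ⟨w, hw, k, hk, rfl⟩ := hKV h
      have hkv : k * v * k⁻¹ ∈ V := hVn.conj_mem v hv k
      have e : w * k * v * (w * k)⁻¹ = k * v * k⁻¹ := by
        have := congrArg Subtype.val (hVc.is_comm.comm ⟨w, hw⟩ ⟨_, hkv⟩)
        calc w * k * v * (w * k)⁻¹ = w * (k * v * k⁻¹) * w⁻¹ := by group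
          _ = k * v * k⁻¹ * w * w⁻¹ := by rw [show w * (k * v * k⁻¹) = k * v * k⁻¹ * w from this]
          _ = k * v * k⁻¹ := mul_inv_cancel_right _ _
      rw [e] at hg
      set v' := k * v * k⁻¹
      have h1 : v' * a * v'⁻¹ * a⁻¹ ∈ closure ({a, v' * a * v'⁻¹} : Set G) :=
        mul_mem (subset_closure (Set.mem_insert_of_mem _ rfl)) (inv_mem (subset_closure (Set.mem_insert _ _)))
      have h2 : v' * a * v'⁻¹ * a⁻¹ ∈ V := by
        have := mul_mem hkv (hVn.conj_mem _ (inv_mem hkv) a)
        simpa [mul_assoc] using this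
      obtain ⟨j, hj⟩ := IsPGroup.iff_orderOf.1 hg ⟨_, h1⟩
      rw [orderOf_mk] at hj
      have h3 : orderOf (v' * a * v'⁻¹ * a⁻¹) ∣ Nat.card V := by
        rw [← orderOf_mk _ h2]; exact orderOf_dvd_natCard _
      have h4 : v' * a * v'⁻¹ * a⁻¹ = 1 := orderOf_eq_one_iff.1
        (Nat.eq_one_of_dvd_coprimes ((hcop.symm).pow_left j) hj.dvd h3)
      refine ⟨k⁻¹, inv_mem hk, ?_⟩
      have h5 : v' * a = a * v' := mul_inv_eq_iff_eq_mul.1 (mul_inv_eq_one.1 h4)
      show k⁻¹ * a * k⁻¹⁻¹ * v = v * (k⁻¹ * a * k⁻¹⁻¹)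
      calc k⁻¹ * a * k⁻¹⁻¹ * v = k⁻¹ * (a * v') * k := by simp only [v']; group
        _ = k⁻¹ * (v' * a) * k := by rw [h5]
        _ = v * (k⁻¹ * a * k⁻¹⁻¹) := by simp only [v']; group
    -- the representation on `V`
    letI : CommGroup V := { (inferInstance : Group V) with mul_comm := fun x y => hVc.is_comm.comm x y }
    let f : K →* AddMonoid.End (Additive V) :=
      { toFun := fun k =>
          { toFun := fun w => Additive.ofMul
              (⟨(k : G) * (Additive.toMul w : V) * (k : G)⁻¹, hVn.conj_mem _ (Additive.toMul w).2 _⟩ : V)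
            map_zero' := by
              apply Additive.toMul.injective
              exact Subtype.ext (by simp)
            map_add' := fun x y => by
              apply Additive.toMul.injective
              exact Subtype.ext (by simp [mul_assoc]) }
        map_one' := AddMonoidHom.ext fun w => Additive.toMul.injective (Subtype.ext (by
          show ((1 : K) : G) * ((Additive.toMul w : V) : G) * ((1 : K) : G)⁻¹ = ((Additive.toMul w : V) : G)
          simp))
        map_mul' := fun k l => AddMonoidHom.ext fun w => Additive.toMul.injective (Subtype.ext (by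
          show ((k * l : K) : G) * _ * ((k * l : K) : G)⁻¹ =
            (k : G) * ((l : G) * _ * (l : G)⁻¹) * (k : G)⁻¹
          simp [mul_assoc])) }
    let ρ := f.toHomUnits
    have hRK : R ≤ K := le_normalizer
    have hfixed : ρ ⟨a, hRK haR⟩ = 1 := by
      refine eq_one_of_fixed hp2 (W := Additive V) ?_ ρ.range ((R.subgroupOf K).map ρ)
        (map_le_range ρ _) ?_ ((hRp.of_equiv (subgroupOfEquivOfLe hRK).symm).map ρ)
        ⟨_, show (⟨a, hRK haR⟩ : K) ∈ R.subgroupOf K from haR, rfl⟩ ?_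
      · rwa [Nat.card_congr Additive.toMul]
      · rintro _ ⟨q, rfl⟩ _ ⟨r, hr, rfl⟩
        refine ⟨q * r * q⁻¹, ?_, by simp⟩
        exact (mem_normalizer_iff.1 q.2 r).1 hr
      · intro w
        obtain ⟨k, hk, hc⟩ := hfix (Additive.toMul w : V) (Additive.toMul w).2
        refine ⟨ρ ⟨k, hk⟩, ⟨_, rfl⟩, ?_⟩
        rw [← map_inv, ← map_mul, ← map_mul]
        apply Additive.toMul.injective
        refine Subtype.ext ?_
        show k * a * k⁻¹ * ((Additive.toMul w : V) : G) * (k * a * k⁻¹)⁻¹ = ((Additive.toMul w : V) : G)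
        rw [hc.eq, mul_inv_cancel_right]
    have hav : ∀ v ∈ V, a * v * a⁻¹ = v := fun v hv =>
      congrArg (fun e : (AddMonoid.End (Additive V))ˣ =>
        ((Additive.toMul ((e : AddMonoid.End (Additive V)) (Additive.ofMul (⟨v, hv⟩ : V))) : V) : G)) hfixed
    -- `a` lies in a normal `p`-subgroup
    set N := R ⊓ centralizer (V : Set G) with hN
    have hNn : N.Normal := by
      refine ⟨fun x hx g => ?_⟩
      obtain ⟨v, hv, k, hk, rfl⟩ := hKV g
      have hcn : (centralizer (V : Set G)).Normal := inferInstance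
      have h1 : k * x * k⁻¹ ∈ N := ⟨(mem_normalizer_iff.1 hk x).1 hx.1, hcn.conj_mem x hx.2 k⟩
      have e : v * k * x * (v * k)⁻¹ = k * x * k⁻¹ := by
        calc v * k * x * (v * k)⁻¹ = v * (k * x * k⁻¹) * v⁻¹ := by group
          _ = k * x * k⁻¹ := by rw [mem_centralizer_iff.1 h1.2 v hv, mul_inv_cancel_right]
      rwa [e]
    have haN : a ∈ Cfsg.pCore p G := Core.le_pCore hNn (hRp.to_le inf_le_left)
      ⟨haR, mem_centralizer_iff.2 fun v hv => (mul_inv_eq_iff_eq_mul.1 (hav v hv)).symm⟩
    rw [hcore, mem_bot] at haN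
    exact ha1 haN

theorem le_pCore_of_class_subnormal {G : Type*} [Group G] [Finite G] (hsol : Group.IsSolvable G)
    {p : ℕ} [Fact p.Prime] (hp2 : p ≠ 2) {A : Subgroup G} (hA : IsPGroup p A)
    (h : ∀ c : G, ∃ g : G, IsConj c g ∧ (A.subgroupOf (A ⊔ MulAut.conj g • A)).IsSubnormal) :
    A ≤ Cfsg.pCore p G := by
  intro a ha
  refine mem_pCore_of_paired hp2 _ G rfl hsol a fun c => ?_
  obtain ⟨g, hcg, hsn⟩ := h c
  refine ⟨g, hcg, ?_⟩
  set T := A ⊔ MulAut.conj g • A
  have hAT : A ≤ T := le_sup_left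
  have hgaT : g * a * g⁻¹ ∈ T := mem_sup_right (smul_mem_pointwise_smul a (MulAut.conj g) A ha)
  set U := closure ({a, g * a * g⁻¹} : Set G)
  have hUT : U ≤ T := (closure_le _).2 (Set.insert_subset (hAT ha) (Set.singleton_subset_iff.2 hgaT))
  have hcoreT := Core.le_pCore_of_isSubnormal (p := p) hsn (hA.of_equiv (subgroupOfEquivOfLe hAT).symm)
  haveI := Cfsg.pCore_normal p T
  set P := ((Cfsg.pCore p T).map T.subtype).subgroupOf U
  have hPn : P.Normal := by
    refine ⟨fun x hx u => ?_⟩
    obtain ⟨y, hy, hyx⟩ := hx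
    refine ⟨⟨u, hUT u.2⟩ * y * ⟨u, hUT u.2⟩⁻¹, (Cfsg.pCore_normal p T).conj_mem y hy _, ?_⟩
    show (u : G) * (y : G) * (u : G)⁻¹ = (u : G) * (x : G) * (u : G)⁻¹
    rw [show (y : G) = (x : G) from hyx]
  haveI := hPn
  have hPp : IsPGroup p P := ((Core.isPGroup_pCore p T).map T.subtype).comap_of_injective U.subtype U.subtype_injective
  have haP : (⟨a, subset_closure (Set.mem_insert _ _)⟩ : U) ∈ P :=
    ⟨⟨a, hAT ha⟩, hcoreT (show (⟨a, hAT ha⟩ : T) ∈ A.subgroupOf T from ha), rfl⟩
  set b : U := ⟨g * a * g⁻¹, subset_closure (Set.mem_insert_of_mem _ rfl)⟩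
  have hb : IsPGroup p (zpowers b) := by
    obtain ⟨j, hj⟩ := IsPGroup.iff_orderOf.1 hA ⟨a, ha⟩
    rw [orderOf_mk] at hj
    refine IsPGroup.of_card (n := j) ?_
    rw [Nat.card_zpowers, orderOf_mk, ← MulAut.conj_apply, MulEquiv.orderOf_eq, hj]
  have htop : P ⊔ zpowers b = ⊤ := by
    rw [eq_top_iff]
    rintro ⟨x, hx⟩ -
    induction hx using Subgroup.closure_induction with
    | mem y hy =>
      rcases hy with rfl | rfl
      · exact mem_sup_left haP
      · exact mem_sup_right (mem_zpowers b)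
    | one => exact one_mem _
    | mul x y hx hy ihx ihy => exact mul_mem ihx ihy
    | inv x hx ihx => exact inv_mem ihx
  intro x
  obtain ⟨k, hk⟩ := (hPp.to_sup_of_normal_left hb) ⟨x, htop ▸ mem_top x⟩
  exact ⟨k, congrArg Subtype.val hk⟩

end Cfsg.Agent.FGS4.ClassSubnormal
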