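import Cfsg.Agent.OddLocal.FixOrderP
import Mathlib.GroupTheory.GroupAction.Basic
import Mathlib.GroupTheory.Index
import Mathlib.Data.Set.Card

/-! # `p`-groups of odd order have regular orbits on subsets -/

set_option linter.style.haveILetI false

namespace Cfsg.Agent.FGS4.ClassSubnormal

variable {P Ω : Type*} [Group P] [MulAction P Ω]

/-- `h` carries `A` onto `B`. -/
def Carries (h : P) (A B : Set Ω) : Prop := ∀ ω, ω ∈ A ↔ h • ω ∈ B

theorem Carries.symm {h : P} {A B : Set Ω} (hh : Carries h A B) : Carries h⁻¹ B A := fun ω => by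
  rw [hh (h⁻¹ • ω), smul_inv_smul]

/-- Only pointwise fixers of `S` in `H` preserve `A`. -/
def Reg (H : Subgroup P) (S A : Set Ω) : Prop :=
  ∀ h ∈ H, Carries h A A → ∀ ω ∈ S, h • ω = ω

variable [Finite P] [Finite Ω] {p : ℕ} [hp : Fact p.Prime]

theorem two_regular_sets (hp2 : p ≠ 2) (hP : IsPGroup p P) :
    ∀ (n : ℕ) (H : Subgroup P) (S : Set Ω), S.ncard = n → S.Nonempty →
      (∀ h ∈ H, ∀ ω ∈ S, h • ω ∈ S) →
      ∃ A B : Set Ω, A ⊆ S ∧ B ⊆ S ∧ Reg H S A ∧ Reg H S B ∧ ∀ h ∈ H, ¬ Carries h A B := by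
  classical
  intro n
  induction n using Nat.strong_induction_on with
  | _ n ih =>
    rintro H S rfl ⟨s0, hs0⟩ hinv
    by_cases htr : ∀ ω ∈ S, ∃ h ∈ H, h • s0 = ω
    swap
    · push Not at htr
      obtain ⟨ω1, hω1, hω1'⟩ := htr
      set S1 := {ω | ∃ h ∈ H, h • s0 = ω}
      have hS1 : S1 ⊆ S := by rintro _ ⟨h, hh, rfl⟩; exact hinv h hh _ hs0
      have hinv1 : ∀ h ∈ H, ∀ ω ∈ S1, h • ω ∈ S1 := by
        rintro h hh _ ⟨k, hk, rfl⟩; exact ⟨h * k, mul_mem hh hk, mul_smul _ _ _⟩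
      have hinv1' : ∀ h ∈ H, ∀ ω, h • ω ∈ S1 → ω ∈ S1 := fun h hh ω hω => by
        simpa using hinv1 h⁻¹ (inv_mem hh) _ hω
      have hω1n : ω1 ∉ S1 := fun ⟨h, hh, e⟩ => hω1' h hh e
      have hlt1 : S1.ncard < S.ncard := Set.ncard_lt_ncard
        (Set.ssubset_iff_of_subset hS1 |>.2 ⟨ω1, hω1, hω1n⟩) (Set.toFinite _)
      have hs01 : s0 ∈ S1 := ⟨1, one_mem H, one_smul _ _⟩
      have hlt2 : (S \ S1).ncard < S.ncard := Set.ncard_lt_ncard
        (Set.ssubset_iff_of_subset Set.sdiff_subset |>.2 ⟨s0, hs0, fun h => h.2 hs01⟩) (Set.toFinite _)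
      obtain ⟨A1, B1, hA1, hB1, hA1r, hB1r, hne⟩ := ih _ hlt1 H S1 rfl ⟨s0, hs01⟩ hinv1
      obtain ⟨A2, B2, hA2, -, hA2r, -, -⟩ := ih _ hlt2 H (S \ S1) rfl ⟨ω1, hω1, hω1n⟩
        (fun h hh ω hω => ⟨hinv h hh ω hω.1, fun h' => hω.2 (hinv1' h hh ω h')⟩)
      have key : ∀ (C1 C1' C2 C2' : Set Ω), C1 ⊆ S1 → C1' ⊆ S1 → C2 ⊆ S \ S1 → C2' ⊆ S \ S1 →
          ∀ h ∈ H, Carries h (C1 ∪ C2) (C1' ∪ C2') → Carries h C1 C1' ∧ Carries h C2 C2' := by
        intro C1 C1' C2 C2' hC1 hC1' hC2 hC2' h hh hc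
        refine ⟨fun ω => ⟨fun hω => ?_, fun hω => ?_⟩, fun ω => ⟨fun hω => ?_, fun hω => ?_⟩⟩
        · exact ((hc ω).1 (Or.inl hω)).resolve_right fun e => (hC2' e).2 (hinv1 h hh ω (hC1 hω))
        · exact ((hc ω).2 (Or.inl hω)).resolve_right fun e => (hC2 e).2 (hinv1' h hh ω (hC1' hω))
        · exact ((hc ω).1 (Or.inr hω)).resolve_left fun e => (hC2 hω).2 (hinv1' h hh ω (hC1' e))
        · exact ((hc ω).2 (Or.inr hω)).resolve_left fun e => (hC2' hω).2 (hinv1 h hh ω (hC1 e))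
      refine ⟨A1 ∪ A2, B1 ∪ A2, Set.union_subset (hA1.trans hS1) (hA2.trans Set.sdiff_subset),
        Set.union_subset (hB1.trans hS1) (hA2.trans Set.sdiff_subset), ?_, ?_, ?_⟩
      · intro h hh hc ω hω
        obtain ⟨h1, h2⟩ := key _ _ _ _ hA1 hA1 hA2 hA2 h hh hc
        by_cases h' : ω ∈ S1
        · exact hA1r h hh h1 ω h'
        · exact hA2r h hh h2 ω ⟨hω, h'⟩
      · intro h hh hc ω hω
        obtain ⟨h1, h2⟩ := key _ _ _ _ hB1 hB1 hA2 hA2 h hh hc
        by_cases h' : ω ∈ S1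
        · exact hB1r h hh h1 ω h'
        · exact hA2r h hh h2 ω ⟨hω, h'⟩
      · intro h hh hc
        exact hne h hh (key _ _ _ _ hA1 hB1 hA2 hA2 h hh hc).1
    -- transitive on `S`
    set T := (MulAction.stabilizer P s0).subgroupOf H
    by_cases hT : T = ⊤
    · have hS : ∀ ω ∈ S, ω = s0 := by
        intro ω hω
        obtain ⟨h, hh, rfl⟩ := htr ω hω
        exact (show (⟨h, hh⟩ : H) ∈ T by rw [hT]; exact Subgroup.mem_top _)
      refine ⟨∅, {s0}, Set.empty_subset _, Set.singleton_subset_iff.2 hs0, ?_, ?_, ?_⟩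
      · intro h hh _ ω hω
        rw [hS _ (hinv h hh ω hω), hS ω hω]
      · intro h hh _ ω hω
        rw [hS _ (hinv h hh ω hω), hS ω hω]
      · intro h hh hc
        exact (hc (h⁻¹ • s0)).2 (by rw [smul_inv_smul]; rfl)
    obtain ⟨M, hM, hTM⟩ := (eq_top_or_exists_le_coatom T).resolve_left hT
    have hHp := hP.to_subgroup H
    obtain ⟨hMn, hMpow, -⟩ := OddLocal.coatom_facts hHp hM
    haveI := hMn
    obtain ⟨y, hy⟩ : ∃ y : H, y ∉ M := by
      by_contra h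
      push Not at h
      exact hM.1 (eq_top_iff.2 fun y _ => h y)
    have hdvd : ∀ k : ℤ, y ^ k ∈ M → (p : ℤ) ∣ k := by
      intro k hk
      by_contra hnd
      obtain ⟨e, he⟩ := IsPGroup.iff_orderOf.1 hHp y
      obtain ⟨a, b, hab⟩ := (((Nat.prime_iff_prime_int.mp hp.out).coprime_iff_not_dvd.2 hnd).pow_left
        (m := e))
      refine hy ?_
      have : y = (y ^ k) ^ b := by
        rw [← zpow_mul]
        conv_lhs => rw [← zpow_one y, ← hab]
        rw [zpow_add, mul_comm a, zpow_mul, show y ^ ((p : ℤ) ^ e) = 1 by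
          rw [← Nat.cast_pow, zpow_natCast, ← he, pow_orderOf_eq_one], one_zpow, one_mul, mul_comm b]
      rw [this]; exact zpow_mem hk _
    have hdec : ∀ h : H, ∃ i : Fin p, (y ^ (i : ℕ))⁻¹ * h ∈ M := by
      intro h
      have htop : Subgroup.zpowers y ⊔ M = ⊤ := hM.2 _ (lt_of_le_of_ne le_sup_right fun e =>
        hy (e ▸ Subgroup.mem_sup_left (Subgroup.mem_zpowers y)))
      obtain ⟨a, ha, m, hm, rfl⟩ := Subgroup.mem_sup_of_normal_right.1
        (show h ∈ Subgroup.zpowers y ⊔ M from htop ▸ Subgroup.mem_top h)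
      obtain ⟨k, rfl⟩ := Subgroup.mem_zpowers_iff.1 ha
      have hk := Int.emod_add_mul_ediv k p
      have h0 : 0 ≤ k % (p : ℤ) := Int.emod_nonneg k (by exact_mod_cast hp.out.ne_zero)
      have h1 : k % (p : ℤ) < p := Int.emod_lt_of_pos k (by exact_mod_cast hp.out.pos)
      refine ⟨⟨(k % (p : ℤ)).toNat, by omega⟩, ?_⟩
      rw [← zpow_natCast, Int.toNat_of_nonneg h0]
      have e : (y ^ (k % (p : ℤ)))⁻¹ * (y ^ k * m) = (y ^ (p : ℤ)) ^ (k / (p : ℤ)) * m := by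
        rw [← zpow_mul, ← mul_assoc, ← zpow_neg, ← zpow_add]; congr 2; omega
      rw [e, zpow_natCast]
      exact mul_mem (zpow_mem (hMpow y) _) hm
    have huniq : ∀ i j : Fin p, (y ^ (i : ℕ))⁻¹ * y ^ (j : ℕ) ∈ M → i = j := by
      intro i j hij
      rw [← zpow_natCast, ← zpow_natCast, ← zpow_neg, ← zpow_add] at hij
      obtain ⟨c, hc⟩ := hdvd _ hij
      have h1 := i.2
      have h2 := j.2
      have : c = 0 := by
        rcases lt_trichotomy c 0 with hc0 | hc0 | hc0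
        · exfalso; nlinarith
        · exact hc0
        · exfalso; nlinarith
      subst this
      exact Fin.ext (by omega)
    set S0 := {ω | ∃ m ∈ M, (m : P) • s0 = ω}
    have hS0 : S0 ⊆ S := by rintro _ ⟨m, -, rfl⟩; exact hinv m m.2 _ hs0
    have hinv0 : ∀ m ∈ M.map H.subtype, ∀ ω ∈ S0, m • ω ∈ S0 := by
      rintro _ ⟨m, hm, rfl⟩ _ ⟨k, hk, rfl⟩
      exact ⟨m * k, mul_mem hm hk, mul_smul _ _ _⟩
    have hinv0' : ∀ m ∈ M, ∀ ω, (m : P) • ω ∈ S0 → ω ∈ S0 := fun m hm ω hω => by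
      simpa using hinv0 _ (Subgroup.mem_map_of_mem H.subtype (inv_mem hm)) _ hω
    have hblock : ∀ h : H, ∀ ω, ω ∈ S0 → (h : P) • ω ∈ S0 → h ∈ M := by
      rintro h _ ⟨m, hm, rfl⟩ ⟨k, hk, e⟩
      have e' : k⁻¹ * (h * m) ∈ T := by
        show (k⁻¹ * (h * m) : H).1 • s0 = s0
        simp only [Subgroup.coe_mul, InvMemClass.coe_inv, mul_smul]
        rw [← e, inv_smul_smul]
      have := mul_mem (mul_mem hk (hTM e')) (inv_mem hm)
      simpa [mul_assoc] using this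
    have hlt : S0.ncard < S.ncard := Set.ncard_lt_ncard (Set.ssubset_iff_of_subset hS0 |>.2
      ⟨(y : P) • s0, hinv y y.2 _ hs0, fun hmem => hy (hblock y s0 ⟨1, one_mem M, one_smul _ _⟩ hmem)⟩)
      (Set.toFinite _)
    obtain ⟨A0, B0, hA0, hB0, hA0r, hB0r, hne⟩ := ih _ hlt (M.map H.subtype) S0 rfl
      ⟨s0, 1, one_mem M, one_smul _ _⟩ hinv0
    let C : Bool → Set Ω := fun b => if b then A0 else B0
    have hCsub : ∀ b, C b ⊆ S0 := by rintro (_ | _) <;> simp [C, hA0, hB0]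
    let Δ : (Fin p → Bool) → Set Ω := fun f => {ω | ∃ i : Fin p, ∃ α ∈ C (f i), (y : P) ^ (i : ℕ) • α = ω}
    have hΔS : ∀ f, Δ f ⊆ S := by
      rintro f _ ⟨i, α, hα, rfl⟩
      exact hinv _ (pow_mem y.2 _) _ (hS0 (hCsub _ hα))
    have hΔmem : ∀ f (i : Fin p), ∀ α ∈ S0, ((y : P) ^ (i : ℕ) • α ∈ Δ f ↔ α ∈ C (f i)) := by
      refine fun f i α hα => ⟨?_, fun h => ⟨i, α, h, rfl⟩⟩
      rintro ⟨j, β, hβ, e⟩
      have e1 : ((((y ^ (i : ℕ))⁻¹ * y ^ (j : ℕ) : H)) : P) • β = α := by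
        simp only [Subgroup.coe_mul, InvMemClass.coe_inv, SubmonoidClass.coe_pow, mul_smul]
        rw [e, inv_smul_smul]
      obtain rfl := huniq i j (hblock _ β (hCsub _ hβ) (e1.symm ▸ hα))
      rwa [← smul_left_cancel _ e]
    have hkey : ∀ (h : H) (f g : Fin p → Bool), Carries (h : P) (Δ f) (Δ g) →
        ∀ i : Fin p, ∃ k : Fin p, ((y ^ (k : ℕ))⁻¹ * (h * y ^ (i : ℕ)) ∈ M) ∧ g k = f i ∧
          ((f i = g k) → ∀ α ∈ S0, ((((y ^ (k : ℕ))⁻¹ * (h * y ^ (i : ℕ))) : H) : P) • α = α) := by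
      intro h f g hc i
      obtain ⟨k, hk⟩ := hdec (h * y ^ (i : ℕ))
      refine ⟨k, hk, ?_⟩
      set m : H := (y ^ (k : ℕ))⁻¹ * (h * y ^ (i : ℕ)) with hm
      have hcm : Carries (m : P) (C (f i)) (C (g k)) := by
        intro α
        by_cases hα : α ∈ S0
        · have hmα : (m : P) • α ∈ S0 := hinv0 _ (Subgroup.mem_map_of_mem H.subtype hk) α hα
          have h1 : (h : P) • ((y : P) ^ (i : ℕ) • α) = (y : P) ^ (k : ℕ) • ((m : P) • α) := by
            rw [← mul_smul, ← mul_smul, hm]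
            simp only [Subgroup.coe_mul, InvMemClass.coe_inv, SubmonoidClass.coe_pow,
              mul_inv_cancel_left]
          rw [← hΔmem f i α hα, hc, h1, hΔmem g k _ hmα]
        · exact ⟨fun e => absurd (hCsub _ e) hα, fun e => absurd (hinv0' m hk α (hCsub _ e)) hα⟩
      have hmM : (m : P) ∈ M.map H.subtype := Subgroup.mem_map_of_mem H.subtype hk
      have heq : g k = f i := by
        rcases Bool.eq_false_or_eq_true (f i) with hf | hf <;>
          rcases Bool.eq_false_or_eq_true (g k) with hg | hg <;> rw [hf, hg] <;>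
            simp only [C, hf, hg, if_true, Bool.false_eq_true, if_false] at hcm
        · exact (hne _ hmM hcm).elim
        · exact (hne _ (inv_mem hmM) hcm.symm).elim
      refine ⟨heq, fun e α hα => ?_⟩
      rw [e] at hcm
      cases hgk : g k
      · rw [hgk] at hcm; exact hB0r _ hmM hcm α hα
      · rw [hgk] at hcm; exact hA0r _ hmM hcm α hα
    have hfix : ∀ (h : H) (f : Fin p → Bool), Carries (h : P) (Δ f) (Δ f) → h ∈ M →
        ∀ ω ∈ S, (h : P) • ω = ω := by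
      intro h f hc hh ω hω
      obtain ⟨k, hk, rfl⟩ := htr ω hω
      obtain ⟨i, hi⟩ := hdec ⟨k, hk⟩
      obtain ⟨k', hk', hfk, hfix⟩ := hkey h f f hc i
      have : k' = i := huniq k' i (by
        have h2 : (y ^ (i : ℕ))⁻¹ * h * y ^ (i : ℕ) ∈ M := by
          simpa using hMn.conj_mem h hh (y ^ (i : ℕ))⁻¹
        have := mul_mem hk' (inv_mem h2)
        simpa [mul_assoc] using this)
      subst this
      have hα : ((((y ^ (k' : ℕ))⁻¹ * ⟨k, hk⟩ : H)) : P) • s0 ∈ S0 := ⟨_, hi, rfl⟩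
      have h3 := hfix hfk.symm _ hα
      simp only [Subgroup.coe_mul, InvMemClass.coe_inv, SubmonoidClass.coe_pow, mul_smul,
        smul_inv_smul, inv_smul_eq_iff] at h3
      exact h3
    have hp3 : 3 ≤ p := by have := hp.out.two_le; omega
    let i0 : Fin p := ⟨0, by omega⟩
    let i1 : Fin p := ⟨1, by omega⟩
    let f0 : Fin p → Bool := fun i => decide (i = i0)
    let f1 : Fin p → Bool := fun i => decide (i = i0) || decide (i = i1)
    have hy0 : y ^ (i0 : ℕ) = 1 := pow_zero y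
    have hy1 : y ^ (i1 : ℕ) = y := pow_one y
    refine ⟨Δ f0, Δ f1, hΔS f0, hΔS f1, ?_, ?_, ?_⟩
    · intro h hh hc
      refine hfix ⟨h, hh⟩ f0 hc ?_
      obtain ⟨k, hk, hfk, -⟩ := hkey ⟨h, hh⟩ f0 f0 hc i0
      have : k = i0 := by simpa [f0] using hfk
      rw [this, hy0, inv_one, one_mul, mul_one] at hk
      exact hk
    · intro h hh hc
      refine hfix ⟨h, hh⟩ f1 hc ?_
      obtain ⟨k0, hk0, hf0, -⟩ := hkey ⟨h, hh⟩ f1 f1 hc i0
      obtain ⟨k1, hk1, hf1, -⟩ := hkey ⟨h, hh⟩ f1 f1 hc i1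
      have h0 : k0 = i0 ∨ k0 = i1 := by simpa [f1] using hf0
      have h1 : k1 = i0 ∨ k1 = i1 := by simpa [f1] using hf1
      rcases h0 with rfl | rfl
      · rw [hy0, inv_one, one_mul, mul_one] at hk0; exact hk0
      rw [hy0, hy1, mul_one] at hk0
      exfalso
      rcases h1 with rfl | rfl
      · rw [hy0, hy1, inv_one, one_mul] at hk1
        have hyy : y ^ (2 : ℤ) ∈ M := by
          have := mul_mem (hMn.conj_mem _ (inv_mem hk0) (⟨h, hh⟩ : H)) hk1
          have e : (⟨h, hh⟩ : H) * (y⁻¹ * (⟨h, hh⟩ : H))⁻¹ * (⟨h, hh⟩ : H)⁻¹ * ((⟨h, hh⟩ : H) * y) =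
              y ^ (2 : ℤ) := by
            rw [zpow_two]; group
          rw [← e]; exact this
        obtain ⟨c, hc2⟩ := hdvd 2 hyy
        have : c = 0 ∨ 1 ≤ c ∨ c ≤ -1 := by omega
        rcases this with rfl | hc0 | hc0
        · omega
        · nlinarith
        · nlinarith
      · rw [hy1] at hk1
        refine hy ?_
        have := mul_mem (inv_mem hk0) hk1
        simpa [mul_assoc] using this
    · intro h hh hc
      choose k hk hfk _ using hkey ⟨h, hh⟩ f0 f1 hc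
      have hinj : Function.Injective k := fun a b e => huniq a b (by
        have := mul_mem (inv_mem (hk a)) (e ▸ hk b)
        simpa [mul_assoc] using this)
      obtain ⟨a, ha⟩ := (Finite.injective_iff_surjective.1 hinj) i0
      obtain ⟨b, hb⟩ := (Finite.injective_iff_surjective.1 hinj) i1
      have h2 : a = i0 := by simpa [f0, f1, ha] using (hfk a).symm
      have h3 : b = i0 := by simpa [f0, f1, hb] using (hfk b).symm
      rw [h2, ← h3, hb] at ha
      have := congrArg Fin.val ha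
      simp [i0, i1, h3] at this

theorem exists_regular_set (hp2 : p ≠ 2) (hP : IsPGroup p P) :
    ∃ Δ : Set Ω, ∀ g : P, Carries g Δ Δ → ∀ ω : Ω, g • ω = ω := by
  by_cases hne : Nonempty Ω
  · obtain ⟨A, B, -, -, hA, -, -⟩ := two_regular_sets hp2 hP _ ⊤ (Set.univ : Set Ω) rfl
      Set.univ_nonempty (fun _ _ _ _ => Set.mem_univ _)
    exact ⟨A, fun g hg ω => hA g (Subgroup.mem_top g) hg ω (Set.mem_univ ω)⟩
  · exact ⟨∅, fun g _ ω => (hne ⟨ω⟩).elim⟩

end Cfsg.Agent.FGS4.ClassSubnormal
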